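import Cfsg.Agent.Lib.Asch.Adjs
import Cfsg.Agent.Lib.Linear.MaxSub
import Cfsg.Agent.Lib.Unitary.Field
import Cfsg.Agent.Lib.Q4R.Def
import Cfsg.Prelude.Def_Spor_Mathieu
import Mathlib.FieldTheory.IsAlgClosed.AlgebraicClosure

/-!
# Quasisimple irreducible subgroups of `GL₅`: set-up and trace criteria
-/

set_option autoImplicit false

namespace Cfsg.Lib.Q5

open scoped MatrixGroups Matrix commutatorElement
open Cfsg.Geo Cfsg.Lib.Asch Cfsg.Lib.Linear

variable {F : Type*} [Field F]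

/-- `GL₅(F)`. -/
abbrev G5 (F : Type*) [Field F] : Type _ := GL (Fin 5) F

/-- `P` modulo its scalars. -/
abbrev Sq (P : Subgroup (G5 F)) : Type _ := P ⧸ (scalars (Fin 5) F).subgroupOf P

/-- `P` is perfect, simple modulo scalars and absolutely irreducible. -/
structure QS (P : Subgroup (G5 F)) : Prop where
  perfect : ⁅P, P⁆ = P
  simple : IsSimpleGroup (Sq P)
  nonabelian : ¬ IsMulCommutative (Sq P)
  env : env P = ⊤

/-- `P` is realised over no proper subfield. -/
def NoSub (P : Subgroup (G5 F)) : Prop :=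
  ∀ k : Subfield F, k ≠ ⊤ → ¬ RealisableOver k (matrixSet P)

/-- `P` contains a transvection. -/
abbrev HasTv (P : Subgroup (G5 F)) : Prop := Q4R.HasTv P

/-- The traces of `x` and `x⁻¹` agree. -/
def Real (P : Subgroup (G5 F)) : Prop := ∀ x ∈ P, (x⁻¹).1.trace = x.1.trace

/-- `P` fixes a non-degenerate quadratic form. -/
def Quad (P : Subgroup (G5 F)) : Prop :=
  ∃ Q : (Fin 5 → F) → F, IsNondegenerateQuadraticForm Q ∧ FixesQuadForm (matrixSet P) Q

/-- `P` is `SL₅` or `SU₅`. -/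
def LU (P : Subgroup (G5 F)) : Prop := P = specialLinear (Fin 5) F ∨
  ∃ (σ : F →+* F) (q : ℕ) (f : (Fin 5 → F) → (Fin 5 → F) → F), Unitary.IsBar q σ ∧
    SForm σ 1 f ∧ P = iso f ⊓ specialLinear (Fin 5) F

/-- `X ≅ L₂(n)`. -/
def L2 (X : Type*) [Group X] (n : ℕ) : Prop :=
  ∃ (E : Type) (_ : Field E) (_ : Fintype E), Fintype.card E = n ∧ Nonempty (X ≃* PSL(2, E))

/-- `X ≅ U₄(2)`. -/
def U42 (X : Type*) [Group X] : Prop :=
  ∃ (E : Type) (_ : Field E) (_ : Fintype E), Fintype.card E = 4 ∧ Nonempty (X ≃* PSU 4 E 2)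

/-- `P` contains no scalar except `1`. -/
def NoZ (P : Subgroup (G5 F)) : Prop := ∀ g ∈ P, g ∈ scalars (Fin 5) F → g = 1

/-- The three exceptional groups. -/
def Exc (p : ℕ) (X : Type*) [Group X] : Prop :=
  (p ≠ 11 ∧ L2 X 11) ∨ (p = 3 ∧ Spor.IsoM11 X) ∨ (p ≠ 2 ∧ p ≠ 3 ∧ U42 X)

theorem qs_of_core [Finite F] {H P : Subgroup (G5 F)} (h : IsResidualCore H P) : QS P :=
  ⟨h.perfect, h.simple, h.nonabelian, env_eq_top_of_absIrred h.absIrred⟩

theorem mem_scalars_iff' {g : G5 F} :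
    g ∈ scalars (Fin 5) F ↔ ∃ c : F, g.1 = c • (1 : Matrix (Fin 5) (Fin 5) F) := by
  rw [mem_scalars_iff]
  refine ⟨fun ⟨c, hc⟩ => ⟨c, hc⟩, fun ⟨c, hc⟩ => ⟨Units.mk0 c fun h0 => ?_, hc⟩⟩
  have := g.isUnit
  rw [hc, h0, zero_smul] at this
  exact not_isUnit_zero this

theorem five_eq_one_of_det {g : G5 F} {c : F} (hd : g.1.det = 1)
    (h : g.1 = c • (1 : Matrix (Fin 5) (Fin 5) F)) : c ^ 5 = 1 := by
  rw [h, Matrix.det_smul, Matrix.det_one, mul_one, Fintype.card_fin] at hd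
  exact hd

theorem pow_five_of_scalar {g : G5 F} (hd : g.1.det = 1) (h : g ∈ scalars (Fin 5) F) :
    g ^ 5 = 1 := by
  obtain ⟨c, hc⟩ := mem_scalars_iff'.1 h
  refine Units.ext ?_
  rw [Units.val_pow_eq_pow_val, hc, smul_pow, one_pow, five_eq_one_of_det hd hc, one_smul,
    Units.val_one]

theorem comm_of_scalar {z : G5 F} (h : z ∈ scalars (Fin 5) F) (g : G5 F) :
    g * z = z * g := Subgroup.mem_center_iff.1 (scalars_le_center h) g

theorem mk_eq_one_iff {P : Subgroup (G5 F)} {g : P} :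
    (QuotientGroup.mk g : Sq P) = 1 ↔ g.1 ∈ scalars (Fin 5) F := by
  rw [QuotientGroup.eq_one_iff, Subgroup.mem_subgroupOf]

theorem mk_eq_mk_iff {P : Subgroup (G5 F)} {g g' : P} :
    (QuotientGroup.mk g : Sq P) = QuotientGroup.mk g' ↔ (g⁻¹ * g').1 ∈ scalars (Fin 5) F := by
  rw [QuotientGroup.eq, Subgroup.mem_subgroupOf]

theorem realisable_of_trace [Finite F] {P : Subgroup (G5 F)} (h : env P = ⊤)
    {k : Subfield F} (ht : ∀ x ∈ P, x.1.trace ∈ k) : RealisableOver k (matrixSet P) := by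
  obtain ⟨B, -, hB⟩ := exists_subfield_of_trace (H := ⊥) h bot_le ht
  refine ⟨B⁻¹, fun s hs => ?_⟩
  exact (hB s).1 (Algebra.subset_adjoin hs)

theorem NoSub.eq_top [Finite F] {P : Subgroup (G5 F)} (h : NoSub P) (he : env P = ⊤)
    {k : Subfield F} (ht : ∀ x ∈ P, x.1.trace ∈ k) : k = ⊤ := by
  by_contra hk
  exact h k hk (realisable_of_trace he ht)

/-- Real traces: the characteristic is odd and a quadratic form is fixed. -/
theorem quad_of_real [Finite F] {P : Subgroup (G5 F)} (h : env P = ⊤)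
    (ht : ∀ x ∈ P, (x⁻¹).1.trace = x.1.trace) :
    (2 : F) ≠ 0 ∧ ∃ Q : (Fin 5 → F) → F, IsNondegenerateQuadraticForm Q ∧
      FixesQuadForm (matrixSet P) Q := by
  obtain ⟨ε, f, hf, hs, ha⟩ := exists_sform_of_trace (σ := RingHom.id F) (fun _ => rfl)
    (H := P) h Subgroup.le_normalizer ht
  have hne : ¬ ∀ v, f v v = 0 := fun hv => by
    have := hf.even_card hv
    rw [Fintype.card_fin] at this
    exact absurd this (by decide)
  have h2 : (2 : F) ≠ 0 := fun h2 =>
    hne (hf.alt_of_irr h2 (by rw [Fintype.card_fin]; omega) (irr_of_env h) hs)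
  refine ⟨h2, ?_⟩
  rcases hf.eps_id with rfl | rfl
  · refine ⟨fun v => f v v, hf.isQuad h2, ?_⟩
    rintro _ ⟨x, hx, rfl⟩ v
    exact hf.adj_eq_inv_iff.1 (ha x hx) v v
  · exact absurd (hf.alt_of_neg h2) hne

/-- `σ`-real traces: a unitary form is fixed. -/
theorem unitary_of_trace [Finite F] {P : Subgroup (G5 F)} (h : env P = ⊤) {σ : F →+* F}
    (hσ : ∀ a, σ (σ a) = a) (h1 : ∃ a, σ a ≠ a)
    (ht : ∀ x ∈ P, (x⁻¹).1.trace = σ x.1.trace) :
    ∃ f : (Fin 5 → F) → (Fin 5 → F) → F, SForm σ 1 f ∧ P ≤ iso f := by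
  obtain ⟨ε, f, hf, -, ha⟩ := exists_sform_of_trace hσ (H := P) h Subgroup.le_normalizer ht
  obtain ⟨c, -, hc⟩ := hf.exists_herm h1
  refine ⟨_, hc, fun x hx u v => ?_⟩
  rw [hf.adj_eq_inv_iff.1 (ha x hx) u v]

namespace QS

variable {P : Subgroup (G5 F)} (h : QS P)
include h

theorem irr : Irr P := irr_of_env h.env

theorem le_sl : P ≤ specialLinear (Fin 5) F := by
  rw [← h.perfect]
  refine Subgroup.commutator_le.2 fun a _ b _ => ?_
  change Matrix.GeneralLinearGroup.det ⁅a, b⁆ = 1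
  rw [map_commutatorElement, commutatorElement_eq_one_iff_mul_comm, mul_comm]

theorem det {g : G5 F} (hg : g ∈ P) : g.1.det = 1 := mem_specialLinear.1 (h.le_sl hg)

theorem not_le_scalars : ¬ P ≤ scalars (Fin 5) F :=
  h.irr.not_le_scalars (by rw [Fintype.card_fin]; omega)

/-- A non-scalar subgroup of `P` normalised by `P` is `P`. -/
theorem le_of_normal {N : Subgroup (G5 F)} (hN : N ≤ P)
    (hn : ∀ g ∈ P, ∀ x ∈ N, g * x * g⁻¹ ∈ N) (h1 : ¬ N ≤ scalars (Fin 5) F) : P ≤ N := by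
  haveI := h.simple
  let π : P →* Sq P := QuotientGroup.mk' _
  haveI : (N.subgroupOf P).Normal := ⟨fun x hx g => hn g g.2 x hx⟩
  have hm : ((N.subgroupOf P).map π).Normal :=
    Subgroup.Normal.map inferInstance π (QuotientGroup.mk'_surjective _)
  have hle : P ≤ N ⊔ scalars (Fin 5) F := by
    rcases hm.eq_bot_or_eq_top with e | e
    · refine absurd (fun x hx => ?_) h1
      have : π ⟨x, hN hx⟩ ∈ (N.subgroupOf P).map π := ⟨⟨x, hN hx⟩, hx, rfl⟩
      rw [e, Subgroup.mem_bot] at this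
      exact mk_eq_one_iff.1 this
    · intro x hx
      have : π ⟨x, hx⟩ ∈ (N.subgroupOf P).map π := e ▸ Subgroup.mem_top _
      obtain ⟨y, hy, hxy⟩ := this
      have h2 : (y⁻¹ * ⟨x, hx⟩ : P).1 ∈ scalars (Fin 5) F :=
        mk_eq_mk_iff.1 hxy
      have h3 : x = y.1 * (y⁻¹ * ⟨x, hx⟩ : P).1 := by simp
      rw [h3]
      exact mul_mem (Subgroup.mem_sup_left hy) (Subgroup.mem_sup_right h2)
  rw [← h.perfect, commutator_eq_of_le_sup scalars_le_center hN hle]
  exact Subgroup.commutator_le.2 fun a ha b hb =>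
    mul_mem (mul_mem (mul_mem ha hb) (inv_mem ha)) (inv_mem hb)

theorem pow_five {g : G5 F} (hg : g ∈ P) (hz : g ∈ scalars (Fin 5) F) : g ^ 5 = 1 :=
  pow_five_of_scalar (h.det hg) hz

/-- An element of order prime to `5` of `P / Z` lifts to an element of the same order. -/
theorem exists_lift {s : Sq P} {n : ℕ} (hn : s ^ n = 1) (h5 : Nat.Coprime n 5) :
    ∃ g : P, (QuotientGroup.mk g : Sq P) = s ∧ g ^ n = 1 := by
  obtain ⟨g, rfl⟩ := QuotientGroup.mk_surjective s
  have hz : (g ^ n).1 ∈ scalars (Fin 5) F := mk_eq_one_iff.1 (by rw [QuotientGroup.mk_pow, hn])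
  have hz5 : (g ^ n) ^ 5 = 1 := Subtype.ext (h.pow_five (g ^ n).2 hz)
  refine ⟨g * (g ^ n) ^ (4 * n ^ 3), ?_, ?_⟩
  · rw [QuotientGroup.mk_mul, QuotientGroup.mk_pow, QuotientGroup.mk_pow, hn, one_pow, mul_one]
  · have hc : Commute g ((g ^ n) ^ (4 * n ^ 3)) := (Commute.refl g).pow_right _ |>.pow_right _
    rw [hc.mul_pow, ← pow_mul (g ^ n), ← pow_succ']
    have : (4 * n ^ 3 * n + 1) % 5 = 0 := by
      have h4 : n % 5 ≠ 0 := fun e => by
        have := Nat.Coprime.eq_one_of_dvd h5.symm (Nat.dvd_of_mod_eq_zero e)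
        omega
      have h6 : n % 5 = 1 ∨ n % 5 = 2 ∨ n % 5 = 3 ∨ n % 5 = 4 := by omega
      rcases h6 with e | e | e | e <;> simp [Nat.add_mod, Nat.mul_mod, Nat.pow_mod, e]
    obtain ⟨m, hm⟩ := Nat.dvd_of_mod_eq_zero this
    rw [hm, pow_mul, hz5, one_pow]

/-- Two lifts of the same order prime to `5` agree. -/
theorem lift_unique {g g' : P} (e : (QuotientGroup.mk g : Sq P) = QuotientGroup.mk g') {n : ℕ}
    (hg : g ^ n = 1) (hg' : g' ^ n = 1) (h3 : Nat.Coprime n 5) : g = g' := by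
  have hz : (g⁻¹ * g').1 ∈ scalars (Fin 5) F := mk_eq_mk_iff.1 e
  have hz3 : (g⁻¹ * g') ^ 5 = 1 := Subtype.ext (h.pow_five (g⁻¹ * g').2 hz)
  have hc : Commute g (g⁻¹ * g') := Subtype.ext (comm_of_scalar hz g.1)
  have hzn : (g⁻¹ * g') ^ n = 1 := by
    have := hc.mul_pow n
    rwa [mul_inv_cancel_left, hg, hg', one_mul, eq_comm] at this
  have := (pow_gcd_eq_one.2 ⟨hzn, hz3⟩)
  rw [h3, pow_one] at this
  exact inv_mul_eq_one.1 this

end QS

/-! ### Extension of scalars -/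

section Ext

variable {K : Type*} [Field K] (f : F →+* K)

/-- `P` over a bigger field. -/
def ext (P : Subgroup (G5 F)) : Subgroup (G5 K) := P.map (Matrix.GeneralLinearGroup.map f)

theorem map_val (g : G5 F) : (Matrix.GeneralLinearGroup.map f g).1 = g.1.map f := rfl

theorem map_inj : Function.Injective (Matrix.GeneralLinearGroup.map f : G5 F → G5 K) := fun _ _ e =>
  Units.ext (Matrix.map_injective f.injective (congrArg Units.val e))

theorem map_scal {g : G5 F} :
    Matrix.GeneralLinearGroup.map f g ∈ scalars (Fin 5) K ↔ g ∈ scalars (Fin 5) F := by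
  rw [mem_scalars_iff', mem_scalars_iff']
  constructor
  · rintro ⟨c, hc⟩
    have k : ∀ i j, f (g.1 i j) = if i = j then c else 0 := fun i j => by
      have := congrFun (congrFun hc i) j
      simpa [Matrix.one_apply, map_val] using this
    refine ⟨g.1 0 0, Matrix.ext fun i j => f.injective ?_⟩
    rw [k]
    by_cases e : i = j
    · simp [e, k]
    · simp [e]
  · rintro ⟨c, hc⟩
    refine ⟨f c, Matrix.ext fun i j => ?_⟩
    rw [map_val, hc]
    by_cases e : i = j
    · simp [e]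
    · simp [e]

theorem sq_ext (P : Subgroup (G5 F)) : Nonempty (Sq P ≃* Sq (ext f P)) := by
  refine ⟨QuotientGroup.congr _ _ (P.equivMapOfInjective _ (map_inj f)) (Subgroup.ext fun g => ?_)⟩
  refine (Subgroup.mem_map_equiv (f := P.equivMapOfInjective _ (map_inj f))).trans ?_
  rw [Subgroup.mem_subgroupOf, Subgroup.mem_subgroupOf, ← map_scal f]
  obtain ⟨y, rfl⟩ := (P.equivMapOfInjective _ (map_inj f)).surjective g
  rw [MulEquiv.symm_apply_apply]
  rfl

theorem env_ext {P : Subgroup (G5 F)} (h : env P = ⊤) : env (ext f P) = ⊤ := by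
  have k : ∀ X ∈ env P, X.map f ∈ env (ext f P) := fun X hX => by
    induction hX using Algebra.adjoin_induction with
    | mem x hx =>
      obtain ⟨g, hg, rfl⟩ := hx
      exact Algebra.subset_adjoin ⟨_, Subgroup.mem_map_of_mem _ hg, rfl⟩
    | algebraMap r =>
      have : (algebraMap F (Matrix (Fin 5) (Fin 5) F) r).map f = algebraMap K _ (f r) := by
        ext i j
        by_cases e : i = j <;> simp [Matrix.algebraMap_matrix_apply, e]
      rw [this]
      exact Subalgebra.algebraMap_mem _ _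
    | add x y _ _ hx hy => rw [Matrix.map_add _ (map_add f)]; exact add_mem hx hy
    | mul x y _ _ hx hy => rw [Matrix.map_mul]; exact mul_mem hx hy
  refine eq_top_iff.2 fun X _ => ?_
  rw [Matrix.matrix_eq_sum_single X]
  refine sum_mem fun i _ => sum_mem fun j _ => ?_
  have := Subalgebra.smul_mem _ (k (Matrix.single i j 1) (h ▸ trivial)) (X i j)
  rwa [Matrix.map_single, map_one, Matrix.smul_single, smul_eq_mul, mul_one] at this

theorem QS.ext {P : Subgroup (G5 F)} (h : QS P) : QS (ext f P) := by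
  obtain ⟨e⟩ := sq_ext f P
  have := h.simple
  refine ⟨by rw [Q5.ext, ← Subgroup.map_commutator, h.perfect], e.symm.isSimpleGroup,
    fun c => h.nonabelian ⟨⟨fun a b => e.injective (by rw [map_mul, map_mul, c.1.1])⟩⟩, env_ext f h.env⟩

theorem finite_ext (P : Subgroup (G5 F)) [Finite P] : Finite (ext f P) :=
  Finite.of_equiv _ (P.equivMapOfInjective _ (map_inj f)).toEquiv

theorem Real.desc {P : Subgroup (G5 F)} (h : Real (ext f P)) : Real P := fun x hx => f.injective (by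
  have := h _ (Subgroup.mem_map_of_mem _ hx)
  rwa [← map_inv, map_val, map_val, ← AddMonoidHom.map_trace, ← AddMonoidHom.map_trace] at this)

theorem HasTv.desc {P : Subgroup (G5 F)} (h : HasTv (ext f P)) : HasTv P := by
  obtain ⟨_, ⟨g, hg, rfl⟩, v, φ, hv, hφ, h0, e⟩ := h
  set N : Matrix (Fin 5) (Fin 5) F := g.1 - 1 with hN
  have k : ∀ i j, f (N i j) = v i * φ j := fun i j => by
    have := congrFun (congrFun e i) j
    rw [map_val, Matrix.map_apply] at this
    rw [hN, Matrix.sub_apply, map_sub, this]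
    by_cases q : i = j <;> simp [q, Matrix.vecMulVec_apply, Matrix.one_apply]
  obtain ⟨a, ha⟩ := Function.ne_iff.1 hv
  obtain ⟨b, hb⟩ := Function.ne_iff.1 hφ
  have ha : v a ≠ 0 := ha
  have hb : φ b ≠ 0 := hb
  have n0 : N a b ≠ 0 := fun h => by
    have := k a b
    rw [h, map_zero] at this
    exact mul_ne_zero ha hb this.symm
  refine ⟨g, hg, fun i => N i b, fun j => N a j / N a b, fun h => n0 (congrFun h a),
    fun h => ?_, f.injective ?_, ?_⟩
  · simpa [n0] using congrFun h b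
  · rw [map_zero, dotProduct, map_sum]
    have : ∀ i, f (N a i / N a b * N i b) = φ i * v i := fun i => by
      rw [map_mul, map_div₀, k, k, k]; field_simp
    simp only [this]
    exact h0
  · rw [← sub_eq_iff_eq_add']
    refine Matrix.ext fun i j => f.injective ?_
    rw [← hN, Matrix.vecMulVec_apply, map_mul, map_div₀, k, k, k, k]; field_simp

end Ext

end Cfsg.Lib.Q5
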