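import Cfsg.Agent.Lib.Q5.Def

/-!
# Q5 toolbox I: weights of abelian `p'`-subgroups of `GL₅(K)`
-/

set_option autoImplicit false

namespace Cfsg.Lib.Q5

open scoped MatrixGroups Matrix commutatorElement
open Cfsg.Geo Cfsg.Lib.Asch Cfsg.Lib.Linear Cfsg.Lib.Q4R

variable {K : Type*} [Field K] {A : Subgroup (G5 K)} {k n : G5 K} {χ : Fin 5 → A →* Kˣ}

/-- `k` diagonalises `A` with weights `χ`. -/
def Wt (A : Subgroup (G5 K)) (k : G5 K) (χ : Fin 5 → A →* Kˣ) : Prop :=
  ∀ a : A, k * a.1 * k⁻¹ = dg fun i => χ i a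

/-- Simultaneous diagonalisation.  Every `a ∈ A` is annihilated by `X ^ |A| - 1`, which is separable, so `a` is
semisimple; `Module.End.iSup_iInf_maxGenEigenspace_eq_top_of_forall_mapsTo` /
`Module.End.iSup_iInf_eigenspace..` (or induction with Maschke as in `Q4R.mono_aux`) give a basis of common
eigenvectors; the columns of `k⁻¹` are these vectors. -/
theorem exists_wt [IsAlgClosed K] (A : Subgroup (G5 K)) [Finite A] (hc : ∀ a ∈ A, ∀ b ∈ A, a * b = b * a)
    (hp : (Nat.card A : K) ≠ 0) : ∃ k χ, Wt A k χ := by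
  let f : A → Module.End K (Fin 5 → K) := fun a => Matrix.toLinAlgEquiv' a.1.1
  have h1 : ∀ (a : A) (μ : K), (f a).maxGenEigenspace μ = (f a).eigenspace μ := fun a μ =>
    (Module.End.isFinitelySemisimple_iff_isSemisimple.2 (Module.End.isSemisimple_of_squarefree_aeval_eq_zero
      (Polynomial.separable_X_pow_sub_C 1 hp one_ne_zero).squarefree (by
        have : a.1 ^ Nat.card A = 1 := congrArg Subtype.val (pow_card_eq_one' (x := a))
        rw [map_sub, map_pow, Polynomial.aeval_X, Polynomial.aeval_C, map_one, ← map_pow,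
          ← Units.val_pow_eq_pow_val, this, Units.val_one, map_one, sub_self]))).maxGenEigenspace_eq_eigenspace μ
  have h2 := Module.End.iSup_iInf_maxGenEigenspace_eq_top_of_iSup_maxGenEigenspace_eq_top_of_commute f
    (fun a b _ => by
      change _ * _ = _ * _
      rw [← map_mul, ← map_mul, ← Units.val_mul, hc _ a.2 _ b.2, Units.val_mul])
    fun a => Module.End.iSup_maxGenEigenspace_eq_top _
  obtain ⟨S, h3, h4, h5⟩ := exists_linearIndependent K {v | ∀ a, ∃ c : K, f a v = c • v}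
  let b0 := Module.Basis.mk h5 (by
    rw [Subtype.range_coe, h4, ← h2]
    exact iSup_le fun χ v hv => Submodule.subset_span fun i =>
      ⟨χ i, Module.End.mem_eigenspace_iff.1 (h1 i _ ▸ (Submodule.mem_iInf _).1 hv i)⟩)
  let e := b0.indexEquiv (Pi.basisFun K (Fin 5))
  let b := b0.reindex e
  choose c hcv using fun a j => h3 (e.symm j).2 a
  have hb : ∀ (a : A) j, a.1.1 *ᵥ b j = c a j • b j := fun a j => by simpa [b, b0, f] using hcv a j
  haveI := (Pi.basisFun K (Fin 5)).invertibleToMatrix b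
  let g : G5 K := unitOfInvertible ((Pi.basisFun K (Fin 5)).toMatrix b)
  have hg : ∀ i j, g.1 i j = b j i := fun i j => by simp [g, Module.Basis.toMatrix_apply]
  have key : ∀ a : A, (g⁻¹ * a.1 * g⁻¹⁻¹).1 = Matrix.diagonal (c a) := fun a => by
    rw [inv_inv, mul_assoc, Units.val_mul, Units.inv_mul_eq_iff_eq_mul, Units.val_mul]
    ext i j
    have := congrFun (hb a j) i
    rw [Matrix.mul_diagonal, hg, mul_comm, Matrix.mul_apply]
    simp only [hg]
    exact this
  let φ : Fin 5 → A →* K := fun i =>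
    { toFun := fun a => c a i
      map_one' := by
        have := congrFun (congrFun (key 1) i) i
        simpa using this.symm
      map_mul' := fun x y => by
        have : g⁻¹ * (x * y).1 * g⁻¹⁻¹ = (g⁻¹ * x.1 * g⁻¹⁻¹) * (g⁻¹ * y.1 * g⁻¹⁻¹) := by
          push_cast; group
        have := congrArg Units.val this
        rw [Units.val_mul (g⁻¹ * x.1 * g⁻¹⁻¹), key, key, key, Matrix.diagonal_mul_diagonal] at this
        exact congrFun (Matrix.diagonal_injective this) i }
  exact ⟨g⁻¹, fun i => (φ i).toHomUnits, fun a => Units.ext (by rw [key, dg_val]; rfl)⟩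

namespace Wt

variable (h : Wt A k χ)
include h

theorem det (a : A) : a.1.1.det = ∏ i, (χ i a : K) := by
  rw [← Matrix.det_units_conj k, ← Units.val_mul, ← Units.val_mul, h a, dg_val, Matrix.det_diagonal]

theorem trace (a : A) : a.1.1.trace = ∑ i, (χ i a : K) := by
  rw [← Matrix.trace_units_conj k, ← Units.val_mul, ← Units.val_mul, h a, dg_val, Matrix.trace_diagonal]

theorem eq_one {a : A} (e : ∀ i, χ i a = 1) : a = 1 := by
  have := h a
  rw [show (fun i => χ i a) = 1 from funext e, map_one, conj_eq_one_iff] at this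
  exact Subtype.ext this

theorem mem_scal {a : A} : a.1 ∈ scalars (Fin 5) K ↔ ∀ i j, χ i a = χ j a := by
  rw [← cj_scal k⁻¹, mem_cj, inv_inv, h a, Q4R.mem_scal]
  refine ⟨fun ⟨c, e⟩ i j => ?_, fun e => ⟨χ 0 a, by rw [sc_eq]; exact congrArg _ (funext fun i => e i 0)⟩⟩
  have := dg_inj (e.trans (sc_eq c))
  exact (congrFun this i).trans (congrFun this j).symm

/-- `rank (a - c)` is the number of weights with value `≠ c`. -/
theorem rank (a : A) (c : K) [DecidableEq K] :
    (a.1.1 - c • (1 : Matrix (Fin 5) (Fin 5) K)).rank = (Finset.univ.filter fun i => (χ i a : K) ≠ c).card := by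
  have e : k.1 * (a.1.1 - c • (1 : Matrix (Fin 5) (Fin 5) K)) * (k⁻¹).1 =
      Matrix.diagonal fun i => (χ i a : K) - c := by
    rw [mul_sub, sub_mul, ← Units.val_mul, ← Units.val_mul, h a, dg_val, Matrix.mul_smul, mul_one, Matrix.smul_mul,
      Units.mul_inv, Matrix.smul_one_eq_diagonal, Matrix.diagonal_sub]
  rw [← Matrix.rank_mul_eq_right_of_isUnit_det k.1 _ (Matrix.isUnit_iff_isUnit_det _ |>.1 k.isUnit),
    ← Matrix.rank_mul_eq_left_of_isUnit_det (k⁻¹).1 _ (Matrix.isUnit_iff_isUnit_det _ |>.1 (k⁻¹).isUnit), e,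
    Matrix.rank_diagonal, Fintype.card_subtype]
  simp only [sub_ne_zero]

/-- Compare the entries `(i, j)` of `(k n k⁻¹) (k a k⁻¹) = (k b k⁻¹) (k n k⁻¹)`. -/
theorem entry {a b : A} (e : n * a.1 * n⁻¹ = b.1) {i j : Fin 5} (hn : (k * n * k⁻¹).1 i j ≠ 0) : χ i b = χ j a := by
  have : k * n * k⁻¹ * (k * a.1 * k⁻¹) = k * b.1 * k⁻¹ * (k * n * k⁻¹) := by rw [← e]; group
  rw [h a, h b] at this
  have := congrArg (fun g : G5 K => g.1 i j) this
  rw [Units.val_mul (k * n * k⁻¹), Units.val_mul (dg _), dg_val, dg_val, Matrix.mul_diagonal, Matrix.diagonal_mul,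
    mul_comm] at this
  exact Units.ext (mul_right_cancel₀ hn this).symm

/-- The determinant of `k n k⁻¹` has a non-zero term `∏ j, (k n k⁻¹) (σ j) j`; use `entry`. -/
theorem perm (n : G5 K) : ∃ σ : Equiv.Perm (Fin 5), (∀ j, (k * n * k⁻¹).1 (σ j) j ≠ 0) ∧
    ∀ a b : A, n * a.1 * n⁻¹ = b.1 → ∀ j, χ (σ j) b = χ j a := by
  have d := (Matrix.isUnit_iff_isUnit_det _ |>.1 (k * n * k⁻¹).isUnit).ne_zero
  rw [Matrix.det_apply] at d
  obtain ⟨σ, -, e⟩ := Finset.exists_ne_zero_of_sum_ne_zero d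
  have e' : ∀ j, (k * n * k⁻¹).1 (σ j) j ≠ 0 := fun j z =>
    e (by rw [Finset.prod_eq_zero (f := fun i => (k * n * k⁻¹).1 (σ i) i) (Finset.mem_univ j) z, smul_zero])
  exact ⟨σ, e', fun a b q j => h.entry q (e' j)⟩

/-- If the weights are distinct the normaliser is monomial. -/
theorem mono (hχ : Function.Injective χ) (hn : ∀ a ∈ A, n * a * n⁻¹ ∈ A) (hn' : ∀ a ∈ A, n⁻¹ * a * n ∈ A) :
    k * n * k⁻¹ ∈ NN (Fin 5) K := by
  have _ := hn
  obtain ⟨σ, e, q⟩ := h.perm n
  refine ⟨fun i => Units.mk0 _ (e (σ⁻¹ i)), σ, Units.ext (Matrix.ext fun i j => ?_)⟩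
  rw [mon_apply]
  split_ifs with c
  · subst c; simp
  · by_contra z
    refine c (hχ (MonoidHom.ext fun b => ?_))
    have r : n * (⟨n⁻¹ * b * n, hn' b b.2⟩ : A).1 * n⁻¹ = b.1 := by group
    exact (h.entry r z).trans (q _ _ r j).symm

/-- Elements commuting with `A` preserve the weight spaces. -/
theorem eq_of_entry {x : G5 K} (hx : ∀ a ∈ A, x * a = a * x) {i j : Fin 5} (z : (k * x * k⁻¹).1 i j ≠ 0) :
    χ i = χ j :=
  MonoidHom.ext fun a => h.entry (by rw [hx a a.2, mul_inv_cancel_right]) z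

/-- Elements commuting with `A` act on a weight space `I = {i | χ i = χ i₀}`: the block `I × I` is multiplicative. -/
theorem block [DecidableEq (A →* Kˣ)] (ψ : A →* Kˣ) :
    ∃ β : Subgroup.centralizer (A : Set (G5 K)) →* GL {i // χ i = ψ} K,
      ∀ x i j, (β x).1 i j = (k * x.1 * k⁻¹).1 i j := by
  let φ : Subgroup.centralizer (A : Set (G5 K)) →* Matrix {i // χ i = ψ} {i // χ i = ψ} K :=
    { toFun := fun x => (k * x.1 * k⁻¹).1.submatrix Subtype.val Subtype.val
      map_one' := by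
        ext i j
        simp [Matrix.one_apply, Subtype.ext_iff]
      map_mul' := fun x y => by
        ext i j
        have : k * (x * y).1 * k⁻¹ = (k * x.1 * k⁻¹) * (k * y.1 * k⁻¹) := by push_cast; group
        rw [Matrix.submatrix_apply, this, Units.val_mul (k * x.1 * k⁻¹), Matrix.mul_apply, Matrix.mul_apply,
          ← Finset.sum_filter_of_ne (p := fun l => χ l = ψ) fun l _ z =>
            (h.eq_of_entry (fun a ha => (y.2 a ha).symm) (right_ne_zero_of_mul z)).trans j.2]
        exact Finset.sum_subtype _ (by simp) fun l => (k * x.1 * k⁻¹).1 i l * (k * y.1 * k⁻¹).1 l j }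
  exact ⟨φ.toHomUnits, fun x i j => rfl⟩

/-- The determinant is the product of the determinants of the blocks; for two blocks: -/
theorem eq_one_of_blocks {x : G5 K} (hx : ∀ a ∈ A, x * a = a * x)
    (e : ∀ i j, χ i = χ j → (k * x * k⁻¹).1 i j = (1 : Matrix (Fin 5) (Fin 5) K) i j) : x = 1 := by
  refine conj_eq_one_iff.1 (Units.ext (Matrix.ext fun i j => ?_) : k * x * k⁻¹ = 1)
  by_cases c : χ i = χ j
  · exact e i j c
  · rw [Units.val_one, Matrix.one_apply_ne fun z => c (by rw [z])]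
    exact by_contra fun z => c (h.eq_of_entry hx z)

end Wt

end Cfsg.Lib.Q5
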