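import Cfsg.Agent.Lib.Q5.T2b

/-!
# Q5 toolbox II: obstructions in `GL₅(K)`
-/

set_option autoImplicit false

namespace Cfsg.Lib.Q5

open scoped MatrixGroups Matrix commutatorElement
open Cfsg.Geo Cfsg.Lib.Asch Cfsg.Lib.Linear Cfsg.Lib.Q4R

variable {K : Type*} [Field K] [IsAlgClosed K] {x y z g s t u v : G5 K}

namespace T2a

theorem wt_zp {n : ℕ} (hK : (n : K) ≠ 0) (h1 : x ^ n = 1) : ∃ k χ, Wt (Subgroup.zpowers x) k χ := by
  have n0 : n ≠ 0 := by rintro rfl; exact hK Nat.cast_zero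
  haveI : Finite (Subgroup.zpowers x) :=
    finite_zpowers.2 (isOfFinOrder_iff_pow_eq_one.2 ⟨n, Nat.pos_of_ne_zero n0, h1⟩)
  refine exists_wt _ ?_ fun r => hK ?_
  · rintro _ ⟨i, rfl⟩ _ ⟨j, rfl⟩
    exact (Commute.refl x).zpow_zpow i j
  · obtain ⟨c, rfl⟩ := orderOf_dvd_of_pow_eq_one h1
    rw [Nat.card_zpowers] at r
    rw [Nat.cast_mul, r, zero_mul]

open Classical in
theorem ex_ev {n : ℕ} (hK : (n : K) ≠ 0) (h1 : x ^ n = 1) : ∃ l : Fin 5 → Kˣ, (∀ i, l i ^ n = 1) ∧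
    ((∀ i, l i = 1) → x = 1) ∧ (x.1 - 1).rank = (Finset.univ.filter fun i => l i ≠ 1).card ∧
    ∀ (g : G5 K) (m : ℕ), g * x * g⁻¹ = x ^ m →
      ∃ τ : Equiv.Perm (Fin 5), ∀ j i, l ((τ ^ j) i) = l i ^ m ^ j := by
  obtain ⟨k, χ, w⟩ := wt_zp hK h1
  set a : Subgroup.zpowers x := ⟨x, Subgroup.mem_zpowers x⟩
  refine ⟨fun i => χ i a, fun i => by rw [← map_pow, show a ^ n = 1 from Subtype.ext h1, map_one],
    fun e => congrArg Subtype.val (w.eq_one e), ?_, fun g m e => ?_⟩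
  · have := w.rank a 1
    rw [one_smul] at this
    simpa using this
  · obtain ⟨σ, -, hσ⟩ := w.perm g
    refine ⟨σ⁻¹, fun j => ?_⟩
    induction j with
    | zero => simp
    | succ j ih =>
      intro i
      have := hσ a (a ^ m) e (σ⁻¹ ((σ⁻¹ ^ j) i))
      rw [show σ (σ⁻¹ ((σ⁻¹ ^ j) i)) = (σ⁻¹ ^ j) i from σ.apply_symm_apply _, map_pow] at this
      change χ _ a = _
      rw [pow_succ', Equiv.Perm.mul_apply, ← this, pow_succ, pow_mul, ← ih]

omit [IsAlgClosed K] in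
theorem mod_one {r m : ℕ} (hr : r.Prime) {l : Kˣ} (h1 : l ^ r = 1) (h0 : l ≠ 1) (e : l ^ m = l) : m % r = 1 := by
  haveI := Fact.mk hr
  have := pow_eq_pow_iff_modEq.1 (e.trans (pow_one l).symm)
  rwa [orderOf_eq_prime h1 h0, Nat.ModEq, Nat.mod_eq_of_lt hr.one_lt] at this

/-- The number of entries equal to `c`. -/
def cnt (c : Fin 3) (a : Fin 5 → Fin 3) : ℕ := (Finset.univ.filter fun i => a i = c).card

theorem cnt_perm {a b : Fin 5 → Fin 3} {σ : Equiv.Perm (Fin 5)} (h : ∀ j, b (σ j) = a j) (c : Fin 3) :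
    cnt c b = cnt c a :=
  (Finset.card_equiv σ fun j => by simp [h]).symm

theorem nine : ∀ a : Fin 5 → Fin 3, cnt 1 (fun i => -a i) = cnt 1 a → cnt 0 a ≠ 5 → ∀ b : Fin 5 → Fin 3,
    cnt 0 b = cnt 0 a → cnt 0 (fun i => a i + b i) = cnt 0 a → cnt 0 (fun i => a i + -b i) ≠ cnt 0 a := by
  decide +kernel

end T2a

open T2a

/-- Weights of `A = zpowers x`: some `χ i x = λ ≠ 1`, `λ ^ r = 1`; by `Wt.perm` with `σ` the values
`χ (σ⁻ʲ i) x = λ ^ (m ^ j)`, `j = 0..5` are six distinct eigenvalues. -/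
theorem rat {r m : ℕ} (hr : r.Prime) (hK : (r : K) ≠ 0) (h1 : x ^ r = 1) (h0 : x ≠ 1) (e : g * x * g⁻¹ = x ^ m)
    (hm : ∀ j, 0 < j → j ≤ 5 → m ^ j % r ≠ 1) : False := by
  obtain ⟨l, a, b, -, c⟩ := ex_ev hK h1
  obtain ⟨τ, hτ⟩ := c g m e
  obtain ⟨i, hi⟩ := not_forall.1 (mt b h0)
  have : ∀ (τ : Equiv.Perm (Fin 5)) (i : Fin 5), ∃ j : Fin 5, (τ ^ (j.1 + 1)) i = i := by decide +kernel
  obtain ⟨j, hj⟩ := this τ i
  exact hm (j + 1) (by omega) (by omega) (mod_one hr (a i) hi (by rw [← hτ, hj]))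

/-- As in `rat`: the eigenvalues `≠ 1` fall into orbits `{λ, λ ^ m, λ ^ m²}` of length three with equal
multiplicities. -/
theorem rank_three {r m : ℕ} (hr : r.Prime) (hK : (r : K) ≠ 0) (h1 : x ^ r = 1) (h0 : x ≠ 1)
    (e : g * x * g⁻¹ = x ^ m) (hm : m % r ≠ 1) (hm3 : m ^ 3 % r = 1) : (x.1 - 1).rank = 3 := by
  classical
  obtain ⟨l, a, b, d, c⟩ := ex_ev hK h1
  obtain ⟨τ, hτ⟩ := c g m e
  obtain ⟨i, hi⟩ := not_forall.1 (mt b h0)
  have : ∀ (τ : Equiv.Perm (Fin 5)) (s : Fin 5 → Bool), (∃ i, s i = true) → (∀ i, s i = true → s (τ i) = true) →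
      (∀ i, s i = true → (τ ^ 1) i ≠ i ∧ (τ ^ 2) i ≠ i ∧ (τ ^ 4) i ≠ i ∧ (τ ^ 5) i ≠ i) →
      (Finset.univ.filter fun i => s i = true).card = 3 := by decide +kernel
  have q : ∀ i, l i ^ m ^ 3 = l i := fun i => by rw [← pow_mod_orderOf, ← Nat.mod_mod_of_dvd _
    (orderOf_dvd_of_pow_eq_one (a i)), hm3, pow_mod_orderOf, pow_one]
  have := this τ (fun i => decide (l i ≠ 1)) ⟨i, by simpa using hi⟩ (fun i h => by
    have r := hτ 1 i
    simp only [pow_one, decide_eq_true_eq] at r h ⊢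
    rw [r]
    exact fun s => h (by rw [← q i, pow_succ', pow_mul, s, one_pow])) fun i h => by
      have h' : l i ≠ 1 := by simpa using h
      have n1 : l i ^ m ≠ l i := fun s => hm (mod_one hr (a i) h' s)
      have n2 : l i ^ m ^ 2 ≠ l i := fun s => n1 (by
        have := q i
        rwa [pow_succ, pow_mul, s] at this)
      refine ⟨fun s => n1 ?_, fun s => n2 ?_, fun s => n1 ?_, fun s => n2 ?_⟩
      · rw [← pow_one m, ← hτ, s]
      · rw [← hτ, s]
      · have := hτ 4 i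
        rwa [s, pow_succ, pow_mul, q, eq_comm] at this
      · have := hτ 5 i
        rwa [s, show 5 = 3 + 2 from rfl, pow_add, pow_mul, q, eq_comm] at this
  rw [d, ← this]
  simp

/-- A real element of odd order has the eigenvalue `1` (`σ` of `Wt.perm` inverts the five eigenvalues, their product
`det x` is `1`...: the multiset is closed under inversion and has odd size, so some `λ = λ⁻¹`). -/
theorem rank_real {n : ℕ} (hn : Odd n) (hK : (n : K) ≠ 0) (h1 : x ^ n = 1) (e : g * x * g⁻¹ = x⁻¹) :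
    (x.1 - 1).rank ≤ 4 := by
  classical
  obtain ⟨l, a, -, d, c⟩ := ex_ev hK h1
  obtain ⟨k, rfl⟩ := hn
  obtain ⟨τ, hτ⟩ := c g (2 * k) (e.trans (inv_eq_of_mul_eq_one_left ((pow_succ _ _).symm.trans h1)))
  have : ∀ τ : Equiv.Perm (Fin 5), ∃ i, ∃ j : Fin 3, (τ ^ (2 * j.1 + 1)) i = i := by decide +kernel
  obtain ⟨i, j, hj⟩ := this τ
  have q1 : l i ^ (2 * k) = (l i)⁻¹ := (inv_eq_of_mul_eq_one_left ((pow_succ _ _).symm.trans (a i))).symm
  have q : ∀ j : ℕ, l i ^ (2 * k) ^ (2 * j) = l i := fun j => by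
    induction j with
    | zero => simp
    | succ j ih => rw [Nat.mul_succ, pow_add, pow_mul, ih, sq, pow_mul, q1, inv_pow, q1, inv_inv]
  have r := hτ (2 * j + 1) i
  rw [hj, pow_succ, pow_mul, q, q1] at r
  have o : l i = 1 := by
    have := a i
    rwa [pow_succ, pow_mul, sq, mul_eq_one_iff_eq_inv.2 r, one_pow, one_mul] at this
  have : (Finset.univ.filter fun i => l i ≠ 1).card < (Finset.univ : Finset (Fin 5)).card :=
    Finset.card_lt_card (Finset.filter_ssubset.2 ⟨i, Finset.mem_univ i, by simp [o]⟩)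
  rw [Finset.card_univ, Fintype.card_fin] at this
  omega

/-- An elementary abelian `r`-subgroup of `SL₅(K)`, `r ≠ char K`, embeds in `μ_r⁴`. -/
theorem card_le_four {r : ℕ} (hr : r.Prime) (hK : (r : K) ≠ 0) {A : Subgroup (G5 K)} [Finite A]
    (hA : A ≤ specialLinear (Fin 5) K) (hc : ∀ a ∈ A, ∀ b ∈ A, a * b = b * a) (he : ∀ a ∈ A, a ^ r = 1) :
    Nat.card A ≤ r ^ 4 := by
  haveI := Fact.mk hr
  haveI : NeZero r := ⟨hr.ne_zero⟩
  have p : IsPGroup r A := fun a => ⟨1, Subtype.ext (by simpa using he a a.2)⟩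
  obtain ⟨n, hn⟩ := IsPGroup.iff_card.1 p
  obtain ⟨k, χ, w⟩ := exists_wt A hc (by rw [hn]; push_cast; exact pow_ne_zero _ hK)
  let φ : A → Fin 4 → rootsOfUnity r K := fun a i => ⟨χ i.castSucc a, (mem_rootsOfUnity _ _).2 (by
    rw [← map_pow, show a ^ r = 1 from Subtype.ext (he a a.2), map_one])⟩
  have i : Function.Injective φ := fun a b e => by
    have k1 : ∀ i : Fin 4, χ i.castSucc (a * b⁻¹) = 1 := fun i => by
      rw [map_mul, map_inv, mul_inv_eq_one]; exact congrArg Subtype.val (congrFun e i)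
    have d := w.det (a * b⁻¹)
    rw [mem_specialLinear.1 (hA (a * b⁻¹).2), Fin.prod_univ_castSucc] at d
    simp only [k1, Units.val_one, Finset.prod_const_one, one_mul] at d
    exact mul_inv_eq_one.1 (w.eq_one fun i => Fin.lastCases (Units.ext d.symm) k1 i)
  refine (Nat.card_le_card_of_injective φ i).trans ?_
  rw [Nat.card_fun, Nat.card_fin]
  exact Nat.pow_le_pow_left (card_rootsOfUnity K r) 4

/-- `A = ⟨x, y⟩ ≅ 3²` with all eight non-trivial elements conjugate.  Let `m₀` be the number of trivial weights and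
`d = 5 - rank (a - 1)` (the same for all `a ≠ 1`).  Every non-trivial weight is trivial on exactly one of the four
subgroups `⟨x⟩, ⟨y⟩, ⟨xy⟩, ⟨xy⁻¹⟩`, so `4 (d - m₀) = 5 - m₀`; `m₀ = 5` gives `x = 1`; so `m₀ = 1`, `d = 2`: `x` has three
eigenvalues in `{ω, ω²}`, but `x ~ x⁻¹` makes the two multiplicities equal. -/
theorem no_nine (hK : (3 : K) ≠ 0) (hx : x ^ 3 = 1) (hy : y ^ 3 = 1) (c : x * y = y * x) (h0 : x ≠ 1)
    (hy0 : y ≠ 1) (h1 : y ≠ x) (h2 : y ≠ x⁻¹) (e0 : IsConj x x⁻¹) (e1 : IsConj x y) (e2 : IsConj x (x * y))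
    (e3 : IsConj x (x * y⁻¹)) : False := by
  haveI : Fact (Nat.Prime 3) := ⟨Nat.prime_three⟩
  have fz : ∀ {x : G5 K}, x ^ 3 = 1 → Finite (Subgroup.zpowers x) := fun h =>
    finite_zpowers.2 (isOfFinOrder_iff_pow_eq_one.2 ⟨3, by decide, h⟩)
  haveI := fz hx
  haveI := fz hy
  have cz : ∀ {u v : G5 K}, Commute u v → ∀ (a : Subgroup.zpowers u) (b : Subgroup.zpowers v), Commute a.1 b.1 := by
    rintro u v e ⟨_, i, rfl⟩ ⟨_, j, rfl⟩; exact e.zpow_zpow i j
  have ez : ∀ {u : G5 K}, u ^ 3 = 1 → ∀ a : Subgroup.zpowers u, a.1 ^ 3 = 1 := by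
    rintro u hu ⟨_, i, rfl⟩
    change (u ^ i) ^ 3 = 1
    rw [← zpow_natCast, ← zpow_mul, mul_comm, zpow_mul, zpow_natCast, hu, one_zpow]
  let A := ((Subgroup.zpowers x).subtype.noncommCoprod (Subgroup.zpowers y).subtype (cz c)).range
  haveI : Finite A := Set.finite_range _
  have e3' : ∀ a ∈ A, a ^ 3 = 1 := by
    rintro _ ⟨⟨a, b⟩, rfl⟩
    change (a.1 * b.1) ^ 3 = 1
    rw [(cz c a b).mul_pow, ez hx, ez hy, mul_one]
  have p : IsPGroup 3 A := fun a => ⟨1, Subtype.ext (by simpa using e3' a a.2)⟩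
  obtain ⟨n, hn⟩ := IsPGroup.iff_card.1 p
  obtain ⟨k, χ, w⟩ := exists_wt A (by
    rintro _ ⟨⟨a, b⟩, rfl⟩ _ ⟨⟨a', b'⟩, rfl⟩
    exact ((cz (.refl x) a a').mul_right (cz c a b')).mul_left ((cz c a' b).symm.mul_right (cz (.refl y) b b')))
    (by rw [hn]; push_cast; exact pow_ne_zero _ hK)
  let X : A := ⟨x, (⟨x, Subgroup.mem_zpowers x⟩, 1), mul_one x⟩
  let Y : A := ⟨y, (1, ⟨y, Subgroup.mem_zpowers y⟩), one_mul y⟩
  obtain ⟨i, hi⟩ := not_forall.1 (mt (w.eq_one (a := X)) fun r => h0 (congrArg Subtype.val r))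
  have c3 : ∀ j (a : A), χ j a ^ 3 = 1 := fun j a => by
    rw [← map_pow, show a ^ 3 = 1 from Subtype.ext (e3' a a.2), map_one]
  have pr : IsPrimitiveRoot (χ i X) 3 := orderOf_eq_prime (c3 i X) hi ▸ IsPrimitiveRoot.orderOf _
  set ω := χ i X
  have ex : ∀ j (a : A), ∃ t : Fin 3, ω ^ t.1 = χ j a := fun j a => by
    obtain ⟨t, ht, r⟩ := pr.eq_pow_of_mem_rootsOfUnity ((mem_rootsOfUnity _ _).2 (c3 j a))
    exact ⟨⟨t, ht⟩, r⟩
  choose t ht using ex
  have inj : ∀ {s s' : Fin 3}, ω ^ s.1 = ω ^ s'.1 → s = s' := fun r => Fin.ext (pr.pow_inj (Fin.is_lt _) (Fin.is_lt _) r)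
  have add : ∀ j (a b : A), t j (a * b) = t j a + t j b := fun j a b => inj (by
    rw [ht, map_mul, ← ht, ← ht, ← pow_add, Fin.val_add, ← pow_mod_orderOf, ← pr.eq_orderOf])
  have one : ∀ j, t j 1 = 0 := fun j => inj (by rw [ht, map_one]; exact (pow_zero _).symm)
  have neg : ∀ j (a : A), t j a⁻¹ = -t j a := fun j a =>
    eq_neg_of_add_eq_zero_left (by rw [← add, inv_mul_cancel, one])
  have cj : ∀ b : A, IsConj x b.1 → ∀ s, cnt s (fun j => t j b) = cnt s fun j => t j X := fun b e s => by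
    obtain ⟨g, hg⟩ := isConj_iff.1 e
    obtain ⟨σ, -, hσ⟩ := w.perm g
    exact cnt_perm (σ := σ) (fun j => inj (by rw [ht, ht]; exact hσ X b hg j)) s
  refine nine (fun j => t j X) (by simpa only [neg] using cj X⁻¹ e0 1) (fun r => hi ?_) (fun j => t j Y) (cj Y e1 0)
    (by simpa only [add] using cj (X * Y) e2 0) (by simpa only [add, neg] using cj (X * Y⁻¹) e3 0)
  have : t i X = 0 := Finset.card_filter_eq_iff.1 (r.trans (Fintype.card_fin 5).symm) i (Finset.mem_univ i)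
  exact (ht i X).symm.trans (by rw [this]; exact pow_zero _)

/-- Weights of `A = zpowers u`; `x, y` act on every weight space `I` (`Wt.block`), of dimension `d ≤ 4` as `u` is not
scalar, and `⁅x, y⁆` is the scalar `c λ_I` there; determinants give `(c λ_I) ^ d = 1`, and `(c λ_I) ^ (5 n) = 1` with
`5 n` prime to `6`, so `c λ_I = 1` for all `I` and `u` is scalar. -/
theorem heis {n : ℕ} (hn : Nat.Coprime n 6) (hK : (n : K) ≠ 0) (h1 : u ^ n = 1) (h0 : u ∉ scalars (Fin 5) K)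
    (cx : x * u = u * x) (cy : y * u = u * y) {c : Kˣ} (hc : c ^ 5 = 1) (e : ⁅x, y⁆ = sc c * u) : False := by
  classical
  obtain ⟨k, χ, w⟩ := wt_zp hK h1
  set a : Subgroup.zpowers u := ⟨u, Subgroup.mem_zpowers u⟩
  have m : ∀ {x : G5 K}, x * u = u * x → x ∈ Subgroup.centralizer (Subgroup.zpowers u : Set (G5 K)) := by
    rintro x c _ ⟨i, rfl⟩
    exact (Commute.zpow_right c i).symm
  have key : ∀ i, c * χ i a = 1 := fun i => by
    obtain ⟨β, hβ⟩ := w.block (χ i)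
    have d : (β ⁅(⟨x, m cx⟩ : Subgroup.centralizer _), ⟨y, m cy⟩⁆).1.det = 1 := by
      change ((Matrix.GeneralLinearGroup.det (β _) : Kˣ) : K) = 1
      rw [map_commutatorElement, map_commutatorElement, commutatorElement_eq_one_iff_mul_comm.2 (mul_comm _ _),
        Units.val_one]
    have v : (β ⁅(⟨x, m cx⟩ : Subgroup.centralizer _), ⟨y, m cy⟩⁆).1 = ((c * χ i a : Kˣ) : K) • 1 := by
      ext j l
      rw [hβ]
      change (k * ⁅x, y⁆ * k⁻¹).1 j l = _
      rw [e, ← conj_mul, scal_conj (sc_mem c), show k * u * k⁻¹ = _ from w a, sc_eq, ← map_mul, dg_val,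
        Matrix.diagonal_apply, Matrix.smul_apply, Matrix.one_apply]
      by_cases r : j = l
      · simp [r, l.2]
      · simp [r, Subtype.coe_inj]
    rw [v, Matrix.det_smul, Matrix.det_one, mul_one] at d
    have d1 : 0 < Fintype.card {j // χ j = χ i} := Fintype.card_pos_iff.2 ⟨⟨i, rfl⟩⟩
    have d2 : Fintype.card {j // χ j = χ i} < 5 := by
      by_contra r
      refine h0 ((w.mem_scal (a := a)).2 fun j l => ?_)
      have : ∀ j, χ j = χ i := fun j => by_contra fun q => r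
        ((Fintype.card_subtype_lt (p := fun j => χ j = χ i) q).trans_eq (Fintype.card_fin 5))
      rw [this j, this l]
    have p1 : (c * χ i a) ^ Fintype.card {j // χ j = χ i} = 1 := Units.ext (by simpa using d)
    have p2 : (c * χ i a) ^ (5 * n) = 1 := by
      rw [mul_pow, pow_mul, hc, one_pow, one_mul, mul_comm, pow_mul, ← map_pow, show a ^ n = 1 from Subtype.ext h1,
        map_one, one_pow]
    have co : Nat.Coprime (Fintype.card {j // χ j = χ i}) (5 * n) := by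
      have c12 : Nat.Coprime 12 (5 * n) := Nat.Coprime.mul_right (by decide)
        (Nat.Coprime.coprime_dvd_left (show 12 ∣ 6 ^ 2 by decide) (hn.symm.pow_left 2))
      refine c12.coprime_dvd_left ?_
      generalize Fintype.card {j // χ j = χ i} = d at d1 d2
      interval_cases d <;> decide
    have := pow_gcd_eq_one.2 ⟨p1, p2⟩
    rwa [co, pow_one] at this
  exact h0 ((w.mem_scal (a := a)).2 fun i j => mul_left_cancel ((key i).trans (key j).symm))

end Cfsg.Lib.Q5
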