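import Cfsg.Agent.Lib.Q5.T1

/-!
# Q5 toolbox II b: involutions in `GL₅(K)`
-/

set_option autoImplicit false

namespace Cfsg.Lib.Q5

open scoped MatrixGroups Matrix commutatorElement
open Cfsg.Geo Cfsg.Lib.Asch Cfsg.Lib.Linear Cfsg.Lib.Q4R

variable {K : Type*} [Field K] [IsAlgClosed K] {x y z g s t u v : G5 K}

/-- An involution with eigenvalue `-1` twice. -/
def TA (t : G5 K) : Prop := t * t = 1 ∧ (t.1 - 1).rank = 2

/-- An involution with eigenvalue `-1` four times. -/
def TB (t : G5 K) : Prop := t * t = 1 ∧ (t.1 - 1).rank = 4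

namespace T2b

omit [IsAlgClosed K] in
theorem rank_conj (k g : G5 K) : ((k * g * k⁻¹).1 - 1).rank = (g.1 - 1).rank := by
  have : (k * g * k⁻¹).1 - 1 = k.1 * (g.1 - 1) * (k⁻¹).1 := by
    rw [mul_sub, sub_mul, mul_one, Units.mul_inv]; rfl
  rw [this, Matrix.rank_mul_eq_left_of_isUnit_det _ _ (Matrix.isUnits_det_units _),
    Matrix.rank_mul_eq_right_of_isUnit_det _ _ (Matrix.isUnits_det_units _)]

omit [IsAlgClosed K] in
theorem trace_conj (k g : G5 K) : (k * g * k⁻¹).1.trace = g.1.trace := Matrix.trace_units_conj k g.1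

omit [IsAlgClosed K] in
theorem det_conj (k g : G5 K) : (k * g * k⁻¹).1.det = g.1.det := Matrix.det_units_conj k g.1

omit [IsAlgClosed K] in
theorem sq_conj (h : t * t = 1) (k : G5 K) : k * t * k⁻¹ * (k * t * k⁻¹) = 1 := by
  rw [conj_mul, h, mul_one, mul_inv_cancel]

end T2b

open T2b

omit [IsAlgClosed K] in
theorem TA.conj (h : TA t) (e : IsConj t s) : TA s := by
  obtain ⟨k, rfl⟩ := isConj_iff.1 e
  exact ⟨sq_conj h.1 k, (rank_conj k t).trans h.2⟩

omit [IsAlgClosed K] in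
theorem TB.conj (h : TB t) (e : IsConj t s) : TB s := by
  obtain ⟨k, rfl⟩ := isConj_iff.1 e
  exact ⟨sq_conj h.1 k, (rank_conj k t).trans h.2⟩

variable [NeZero (2 : K)]

namespace T2b

/-- A diagonal matrix of signs. -/
def sg (K : Type*) [Field K] (e : Fin 5 → Bool) : G5 K := dg fun i => if e i then -1 else 1

/-- The number of minus signs. -/
def wt (e : Fin 5 → Bool) : ℕ := (Finset.univ.filter fun i => e i = true).card

/-- The product of two sign vectors. -/
def xo (e f : Fin 5 → Bool) : Fin 5 → Bool := fun i => xor (e i) (f i)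

section
omit [IsAlgClosed K]

omit [NeZero (2 : K)] in
theorem sg_mul (e f : Fin 5 → Bool) : sg K e * sg K f = sg K (xo e f) := by
  rw [sg, sg, sg, ← map_mul]
  congr 1
  funext i
  cases h1 : e i <;> cases h2 : f i <;> simp [xo, h1, h2]

theorem sg_rank (e : Fin 5 → Bool) : ((sg K e).1 - 1).rank = wt e := by
  classical
  rw [sg, dg_val, ← Matrix.diagonal_one, Matrix.diagonal_sub, Matrix.rank_diagonal, Fintype.card_subtype, wt]
  congr 1
  refine Finset.filter_congr fun i _ => ?_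
  have : (-1 - 1 : K) ≠ 0 := fun r => two_ne_zero (α := K) (by linear_combination -r)
  cases e i <;> simp [this]

omit [NeZero (2 : K)] in
theorem sg_trace (e : Fin 5 → Bool) : (sg K e).1.trace = 5 - 2 * wt e := by
  rw [sg, dg_val, Matrix.trace_diagonal, wt, Finset.card_filter, Fin.sum_univ_five, Fin.sum_univ_five]
  cases e 0 <;> cases e 1 <;> cases e 2 <;> cases e 3 <;> cases e 4 <;> norm_num

omit [NeZero (2 : K)] in
theorem sg_det (e : Fin 5 → Bool) : (sg K e).1.det = (-1) ^ wt e := by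
  rw [sg, dg_val, Matrix.det_diagonal, wt, Finset.card_filter, Fin.sum_univ_five, Fin.prod_univ_five]
  cases e 0 <;> cases e 1 <;> cases e 2 <;> cases e 3 <;> cases e 4 <;> norm_num

omit [NeZero (2 : K)] in
theorem sg_zero : sg K (fun _ => false) = 1 := by
  rw [sg, ← map_one dg]; rfl

omit [NeZero (2 : K)] in
theorem sg_perm (σ : Equiv.Perm (Fin 5)) (e : Fin 5 → Bool) :
    pm σ * sg K e * (pm σ)⁻¹ = sg K fun i => e (σ⁻¹ i) := pm_dg_conj σ _

theorem rk {k : G5 K} {e : Fin 5 → Bool} (h : k * g * k⁻¹ = sg K e) : (g.1 - 1).rank = wt e := by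
  rw [← rank_conj k, h, sg_rank]

omit [NeZero (2 : K)] in
theorem mul_sg {k : G5 K} {e f : Fin 5 → Bool} (h : k * s * k⁻¹ = sg K e) (h' : k * t * k⁻¹ = sg K f) :
    k * (s * t) * k⁻¹ = sg K (xo e f) := by
  rw [← sg_mul, ← h, ← h', conj_mul]

end

theorem ex_sg (E : Subgroup (G5 K)) [Finite E] (h : ∀ a ∈ E, a * a = 1) :
    ∃ k : G5 K, ∀ a ∈ E, ∃ e, k * a * k⁻¹ = sg K e := by
  classical
  have p : IsPGroup 2 E := fun a => ⟨1, Subtype.ext (by simpa [sq] using h a a.2)⟩
  obtain ⟨n, hn⟩ := IsPGroup.iff_card.1 p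
  obtain ⟨k, χ, w⟩ := exists_wt E (fun a ha b hb => by
    rw [← inv_eq_of_mul_eq_one_right (h _ (mul_mem ha hb)), mul_inv_rev, inv_eq_of_mul_eq_one_right (h a ha),
      inv_eq_of_mul_eq_one_right (h b hb)]) (by rw [hn]; push_cast; exact pow_ne_zero _ two_ne_zero)
  refine ⟨k, fun a ha => ⟨fun i => decide (χ i ⟨a, ha⟩ = -1), (w ⟨a, ha⟩).trans (congrArg dg (funext fun i => ?_))⟩⟩
  have : χ i ⟨a, ha⟩ * χ i ⟨a, ha⟩ = 1 := by
    rw [← map_mul, show (⟨a, ha⟩ * ⟨a, ha⟩ : E) = 1 from Subtype.ext (h a ha), map_one]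
  by_cases r : χ i ⟨a, ha⟩ = -1
  · simp [r]
  · simp only [r, decide_false, Bool.false_eq_true, if_false]
    exact Units.ext ((mul_self_eq_one_iff.1 (congrArg Units.val this)).resolve_right fun q => r (Units.ext q))

theorem ex_two (hs : s * s = 1) (ht : t * t = 1) (c : s * t = t * s) :
    ∃ (k : G5 K) (e f : Fin 5 → Bool), k * s * k⁻¹ = sg K e ∧ k * t * k⁻¹ = sg K f := by
  have a1 : s * (s * t) = t := by rw [← mul_assoc, hs, one_mul]
  have a2 : t * (s * t) = s := by rw [c, ← mul_assoc, ht, one_mul]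
  have a3 : s * t * s = t := by rw [mul_assoc, ← c, a1]
  have a4 : s * t * t = s := by rw [mul_assoc, ht, mul_one]
  have a5 : s * t * (s * t) = 1 := by rw [mul_assoc, a2, hs]
  let E : Subgroup (G5 K) :=
    { carrier := {1, s, t, s * t}
      one_mem' := by simp
      mul_mem' := by
        rintro a b (rfl | rfl | rfl | rfl) (rfl | rfl | rfl | rfl) <;> simp [hs, ht, a1, a2, a3, a4, a5, ← c]
      inv_mem' := by
        rintro a (rfl | rfl | rfl | rfl) <;>
          simp only [inv_one, inv_eq_of_mul_eq_one_right hs, inv_eq_of_mul_eq_one_right ht,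
            inv_eq_of_mul_eq_one_right a5] <;> simp }
  haveI : Finite E := (Set.toFinite ({1, s, t, s * t} : Set (G5 K))).to_subtype
  obtain ⟨k, hk⟩ := ex_sg E (by rintro a (rfl | rfl | rfl | rfl) <;> simp [hs, ht, a5])
  obtain ⟨e, he⟩ := hk s (.inr (.inl rfl))
  obtain ⟨f, hf⟩ := hk t (.inr (.inr (.inl rfl)))
  exact ⟨k, e, f, he, hf⟩

theorem ex_one (h : t * t = 1) : ∃ (k : G5 K) (e : Fin 5 → Bool), k * t * k⁻¹ = sg K e :=
  let ⟨k, e, _, he, _⟩ := ex_two h h rfl
  ⟨k, e, he⟩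

omit [IsAlgClosed K] [NeZero (2 : K)] in
theorem comm2 {U X : Matrix (Fin 2) (Fin 2) K} (h : U * X = X * U)
    (n : ¬ (U 0 1 = 0 ∧ U 1 0 = 0 ∧ U 0 0 - U 1 1 = 0)) : ∃ α β : K, X = α • (1 : Matrix (Fin 2) (Fin 2) K) + β • U := by
  have e1 := congrFun (congrFun h 0) 0
  have e2 := congrFun (congrFun h 0) 1
  have e3 := congrFun (congrFun h 1) 0
  simp only [Matrix.mul_apply, Fin.sum_univ_two] at e1 e2 e3
  have k : ∀ β : K, X 0 1 = β * U 0 1 → X 1 0 = β * U 1 0 → X 0 0 - X 1 1 = β * (U 0 0 - U 1 1) →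
      ∃ α β : K, X = α • (1 : Matrix (Fin 2) (Fin 2) K) + β • U := fun β a b c => by
    refine ⟨X 1 1 - β * U 1 1, β, Matrix.ext fun i j => ?_⟩
    fin_cases i <;> fin_cases j <;> simp [a, b]
    linear_combination c
  by_cases b : U 0 1 = 0
  · by_cases c : U 1 0 = 0
    · have d : U 0 0 - U 1 1 ≠ 0 := fun d => n ⟨b, c, d⟩
      refine k ((X 0 0 - X 1 1) / (U 0 0 - U 1 1)) ?_ ?_ ?_ <;> field_simp
      · linear_combination e2
      · linear_combination -e3
    · refine k (X 1 0 / U 1 0) ?_ ?_ ?_ <;> field_simp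
      · linear_combination -e1
      · linear_combination e3
  · refine k (X 0 1 / U 0 1) ?_ ?_ ?_ <;> field_simp
    · linear_combination e1
    · linear_combination -e2

omit [IsAlgClosed K] in
theorem two_by_two {X Y U V X' Y' U' V' : Matrix (Fin 2) (Fin 2) K} (hX : X' * X = 1) (hY : Y' * Y = 1)
    (hU : U' * U = 1) (hV : V' * V = 1) (e1 : X * Y = -(Y * X)) (e2 : U * V = -(V * U)) (ux : U * X = X * U)
    (uy : U * Y = Y * U) : False := by
  have k : ∀ {A B A' B' : Matrix (Fin 2) (Fin 2) K}, A' * A = 1 → B' * B = 1 → A * B = -(B * A) → A * B ≠ B * A :=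
    fun {A B A' B'} a b c d => by
      have : (2 : K) • (A * B) = 0 := by rw [two_smul]; nth_rewrite 1 [c]; rw [d, neg_add_cancel]
      have := congrArg (fun m => B' * (A' * m)) ((smul_eq_zero.1 this).resolve_left two_ne_zero)
      simp only [← mul_assoc, mul_zero] at this
      rw [mul_assoc B', a, mul_one, b] at this
      exact one_ne_zero this
  by_cases n : U 0 1 = 0 ∧ U 1 0 = 0 ∧ U 0 0 - U 1 1 = 0
  · refine k hU hV e2 (Matrix.ext fun i j => ?_)
    fin_cases i <;> fin_cases j <;> simp [Matrix.mul_apply, Fin.sum_univ_two, n.1, n.2.1, sub_eq_zero.1 n.2.2] <;> ring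
  · obtain ⟨a, b, rfl⟩ := comm2 ux n
    obtain ⟨c, d, rfl⟩ := comm2 uy n
    refine k hX hY e1 ?_
    simp only [add_mul, mul_add, smul_mul_assoc, mul_smul_comm, one_mul, mul_one]
    module

/-- The upper left block. -/
def bl (g : G5 K) : Matrix (Fin 2) (Fin 2) K := g.1.submatrix (Fin.castLE (by decide)) (Fin.castLE (by decide))

/-- `diag(-, -, +, +, +)`. -/
abbrev z0 (K : Type*) [Field K] : G5 K := sg K ![true, true, false, false, false]

omit [IsAlgClosed K] in
theorem bl_mul (h : x * z0 K = z0 K * x) (y : G5 K) : bl (x * y) = bl x * bl y := by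
  have k : ∀ i j : Fin 5, i < 2 → 2 ≤ j → x.1 i j = 0 := fun i j a b => by
    have : (x.1 * (z0 K).1) i j = ((z0 K).1 * x.1) i j := congrArg (fun g : G5 K => g.1 i j) h
    rw [z0, sg, dg_val, Matrix.mul_diagonal, Matrix.diagonal_mul] at this
    have r1 : ![true, true, false, false, false] i = true := by revert a; fin_cases i <;> decide
    have r2 : ![true, true, false, false, false] j = false := by revert b; fin_cases j <;> decide
    rw [r1, r2] at this
    simp only [Bool.false_eq_true, if_false, if_true, Units.val_one, Units.val_neg] at this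
    exact (mul_eq_zero.1 (show 2 * x.1 i j = 0 by linear_combination this)).resolve_left two_ne_zero
  ext i j
  have a : (Fin.castLE (by decide : 2 ≤ 5) i) < 2 := i.2
  simp only [bl, Matrix.submatrix_apply, Units.val_mul, Matrix.mul_apply, Fin.sum_univ_five, Fin.sum_univ_two,
    k _ 2 a (by decide), k _ 3 a (by decide), k _ 4 a (by decide), zero_mul, add_zero]
  rfl

omit [IsAlgClosed K] [NeZero (2 : K)] in
theorem bl_one : bl (1 : G5 K) = 1 := by
  ext i j; fin_cases i <;> fin_cases j <;> simp [bl]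

omit [IsAlgClosed K] [NeZero (2 : K)] in
theorem bl_z0 : bl (z0 K) = -1 := by
  ext i j; fin_cases i <;> fin_cases j <;> simp [bl, sg, dg_val, Fin.castLE]

omit [IsAlgClosed K] in
theorem no_extra0 (e1 : ⁅x, y⁆ = z0 K) (e2 : ⁅u, v⁆ = z0 K) (cx : x * z0 K = z0 K * x) (cy : y * z0 K = z0 K * y)
    (cu : u * z0 K = z0 K * u) (cv : v * z0 K = z0 K * v) (ux : u * x = x * u) (uy : u * y = y * u) : False := by
  have i : ∀ {a : G5 K}, a * z0 K = z0 K * a → bl a⁻¹ * bl a = 1 := fun {a} c => by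
    rw [← bl_mul (Commute.inv_left (a := a) c), inv_mul_cancel, bl_one]
  have k : ∀ {a b : G5 K}, ⁅a, b⁆ = z0 K → a * z0 K = z0 K * a → b * z0 K = z0 K * b →
      bl a * bl b = -(bl b * bl a) := fun {a b} e ca cb => by
    have : a * b = z0 K * (b * a) := by rw [← e, commutatorElement_def]; group
    rw [← bl_mul ca, this, bl_mul rfl, bl_mul cb, bl_z0, neg_one_mul]
  exact two_by_two (i cx) (i cy) (i cu) (i cv) (k e1 cx cy) (k e2 cu cv) (by rw [← bl_mul cu, ux, bl_mul cx])
    (by rw [← bl_mul cu, uy, bl_mul cy])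

end T2b

theorem ta_or_tb (h : t * t = 1) (h1 : t ≠ 1) (hd : t.1.det = 1) : TA t ∨ TB t := by
  obtain ⟨k, e, he⟩ := ex_one h
  have d := sg_det (K := K) e
  rw [← he, det_conj, hd, eq_comm, neg_one_pow_eq_one_iff_even fun r => two_ne_zero (α := K) (by linear_combination -r)] at d
  have n : e ≠ fun _ => false := fun r => h1 (by rwa [r, sg_zero, conj_eq_one_iff] at he)
  have : ∀ e : Fin 5 → Bool, wt e % 2 = 0 → e ≠ (fun _ => false) → wt e = 2 ∨ wt e = 4 := by decide
  exact (this e (Nat.even_iff.1 d) n).imp (fun r => ⟨h, (rk he).trans r⟩) fun r => ⟨h, (rk he).trans r⟩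

theorem TA.trace (h : TA t) : t.1.trace = 1 := by
  obtain ⟨k, e, he⟩ := ex_one h.1
  rw [← trace_conj k, he, sg_trace, ← rk he, h.2]; norm_num

theorem TB.trace (h : TB t) : t.1.trace = -3 := by
  obtain ⟨k, e, he⟩ := ex_one h.1
  rw [← trace_conj k, he, sg_trace, ← rk he, h.2]; norm_num

/-- Diagonalise `⟨s, t⟩`. -/
theorem TB.mul (hs : TB s) (ht : TB t) (c : s * t = t * s) (n : s ≠ t) : TA (s * t) := by
  obtain ⟨k, e, f, he, hf⟩ := ex_two hs.1 ht.1 c
  have : ∀ e f : Fin 5 → Bool, wt e = 4 → wt f = 4 → e ≠ f → wt (xo e f) = 2 := by decide +kernel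
  refine ⟨by rw [mul_assoc, ← mul_assoc t, ← c, mul_assoc, ht.1, mul_one, hs.1], (rk (mul_sg he hf)).trans
    (this e f ((rk he).symm.trans hs.2) ((rk hf).symm.trans ht.2) fun r => n (conj_injective (x := k) ?_))⟩
  exact he.trans (r ▸ hf.symm)

/-- An involution in a four-group of conjugate involutions is of type `A`. -/
theorem ta_of_pure (h : t * t = 1) (h1 : t ≠ 1) (hd : t.1.det = 1) (c : s * t = t * s) (n : s ≠ t)
    (e1 : IsConj t s) (e2 : IsConj t (s * t)) : TA t := by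
  refine (ta_or_tb h h1 hd).resolve_right fun b => ?_
  have := ((b.conj e1).mul b c n).2.symm.trans (b.conj e2).2
  omega

/-- A four-group of type-`A` involutions: `diag(-,-,+,+,+)`, `diag(+,-,-,+,+)`. -/
theorem frame_of_ta (hs : TA s) (ht : TA t) (hst : TA (s * t)) (c : s * t = t * s) :
    ∃ k : G5 K, k * s * k⁻¹ = rr 0 * rr 1 ∧ k * t * k⁻¹ = rr 1 * rr 2 := by
  obtain ⟨k, e, f, he, hf⟩ := ex_two hs.1 ht.1 c
  have : ∀ e : Fin 5 → Bool, wt e = 2 → ∀ f : Fin 5 → Bool, wt f = 2 → wt (xo e f) = 2 → ∃ σ : Equiv.Perm (Fin 5),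
      ∀ i, e (σ⁻¹ i) = ![true, true, false, false, false] i ∧ f (σ⁻¹ i) = ![false, true, true, false, false] i := by
    decide +kernel
  obtain ⟨σ, h⟩ := this e ((rk he).symm.trans hs.2) f ((rk hf).symm.trans ht.2)
    ((rk (mul_sg he hf)).symm.trans hst.2)
  have r : ∀ g : G5 K, pm σ * k * g * (pm σ * k)⁻¹ = pm σ * (k * g * k⁻¹) * (pm σ)⁻¹ := fun g => by group
  refine ⟨pm σ * k, ?_, ?_⟩
  · rw [r, he, sg_perm, funext fun i => (h i).1, rr, rr, ← map_mul, sg]
    congr 1
    funext i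
    fin_cases i <;> simp
  · rw [r, hf, sg_perm, funext fun i => (h i).2, rr, rr, ← map_mul, sg]
    congr 1
    funext i
    fin_cases i <;> simp

/-- An elementary abelian group of order eight in `SL₅` contains involutions of both types: the sum of the traces of
its elements is `8 m₀` (count with ranks: every non-trivial weight is `-1` on four of the eight elements, so
`Σ rank (a - 1) = 4 (5 - m₀)`, which is neither `14` nor `28`). -/
theorem both_types {E : Subgroup (G5 K)} (hE : E ≤ specialLinear (Fin 5) K) (h2 : ∀ a ∈ E, a * a = 1)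
    (h8 : Nat.card E = 8) : (∃ a ∈ E, TA a) ∧ ∃ a ∈ E, TB a := by
  classical
  haveI : Finite E := Nat.finite_of_card_ne_zero (by omega)
  have ty : ∀ a ∈ E, a ≠ 1 → TA a ∨ TB a := fun a ha n => ta_or_tb (h2 a ha) n (mem_specialLinear.1 (hE ha))
  have nx : ∀ a b : G5 K, ∃ x ∈ E, x ≠ 1 ∧ x ≠ a ∧ x ≠ b ∧ x ≠ a * b := fun a b => by
    by_contra! k
    have : Nat.card E ≤ 4 :=
      calc Nat.card E = (E : Set (G5 K)).ncard := rfl
        _ ≤ (({1, a, b, a * b} : Finset (G5 K)) : Set (G5 K)).ncard :=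
          Set.ncard_le_ncard (fun x hx => by have := k x hx; simp; tauto) (Finset.finite_toSet _)
        _ ≤ _ := by rw [Set.ncard_coe_finset]; exact Finset.card_le_four
    omega
  have iv : ∀ {a b : G5 K}, b ∈ E → a * b = 1 → b = a := fun {a b} hb r =>
    mul_right_cancel ((h2 b hb).trans r.symm)
  obtain ⟨a, ha, a1, -⟩ := nx 1 1
  obtain ⟨b, hb, b1, ba, -⟩ := nx a a
  obtain ⟨c, hc, c1, ca, cb, cab⟩ := nx a b
  constructor
  · by_contra! k
    refine k _ (mul_mem ha hb) (((ty a ha a1).resolve_left (k a ha)).mul ((ty b hb b1).resolve_left (k b hb)) ?_ ba.symm)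
    rw [← inv_eq_of_mul_eq_one_right (h2 _ (mul_mem ha hb)), mul_inv_rev, inv_eq_of_mul_eq_one_right (h2 a ha),
      inv_eq_of_mul_eq_one_right (h2 b hb)]
  · by_contra! n
    have t : ∀ x ∈ E, x ≠ 1 → (x.1 - 1).rank = 2 := fun x hx r => ((ty x hx r).resolve_right (n x hx)).2
    obtain ⟨k, hk⟩ := ex_sg E h2
    obtain ⟨e, he⟩ := hk a ha
    obtain ⟨f, hf⟩ := hk b hb
    obtain ⟨g, hg⟩ := hk c hc
    have : ∀ e : Fin 5 → Bool, wt e = 2 → ∀ f : Fin 5 → Bool, wt f = 2 → wt (xo e f) = 2 → ∀ g : Fin 5 → Bool,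
        wt g = 2 → wt (xo e g) = 2 → wt (xo f g) = 2 → wt (xo (xo e f) g) ≠ 2 := by decide +kernel
    exact this e ((rk he).symm.trans (t a ha a1)) f ((rk hf).symm.trans (t b hb b1))
      ((rk (mul_sg he hf)).symm.trans (t _ (mul_mem ha hb) fun r => ba (iv hb r))) g ((rk hg).symm.trans (t c hc c1))
      ((rk (mul_sg he hg)).symm.trans (t _ (mul_mem ha hc) fun r => ca (iv hc r)))
      ((rk (mul_sg hf hg)).symm.trans (t _ (mul_mem hb hc) fun r => cb (iv hc r)))
      ((rk (mul_sg (mul_sg he hf) hg)).symm.trans (t _ (mul_mem (mul_mem ha hb) hc) fun r => cab (iv hc r)))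

/-- On the two-dimensional `-1`-space of `z` the elements `x, y` anticommute; `u` commutes with both, so is scalar there
(`2 × 2` matrices: `x` is invertible, non-scalar of trace `0`; `1, x, y, x y` span), so `⁅u, v⁆ = 1` there. -/
theorem TA.no_extra (h : TA z) (e1 : ⁅x, y⁆ = z) (e2 : ⁅u, v⁆ = z) (cx : x * z = z * x) (cy : y * z = z * y)
    (cu : u * z = z * u) (cv : v * z = z * v) (ux : u * x = x * u) (uy : u * y = y * u) : False := by
  obtain ⟨k, e, he⟩ := ex_one h.1
  have : ∀ e : Fin 5 → Bool, wt e = 2 → ∃ σ : Equiv.Perm (Fin 5),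
      (fun i => e (σ⁻¹ i)) = ![true, true, false, false, false] := by decide +kernel
  obtain ⟨σ, h1⟩ := this e ((rk he).symm.trans h.2)
  let φ := MulAut.conj (pm σ * k)
  have r : φ z = z0 K := by
    rw [z0, ← h1, ← sg_perm, ← he, MulAut.conj_apply]; group
  have m : ∀ {a b : G5 K}, a * b = b * a → φ a * φ b = φ b * φ a := fun q => by rw [← map_mul, q, map_mul]
  exact no_extra0 (x := φ x) (y := φ y) (u := φ u) (v := φ v) (by rw [← r, ← e1, map_commutatorElement])
    (by rw [← r, ← e2, map_commutatorElement]) (r ▸ m cx) (r ▸ m cy) (r ▸ m cu) (r ▸ m cv) (m ux) (m uy)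

end Cfsg.Lib.Q5
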