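import Cfsg.Agent.Lib.Q5.Def
import Cfsg.Agent.Lib.Schur.Basic
import Cfsg.Agent.S0102

/-!
# Q5 toolbox III: Scott's lemma, traces, scalars
-/

set_option autoImplicit false

namespace Cfsg.Lib.Q5

open scoped MatrixGroups Matrix commutatorElement
open Cfsg.Geo Cfsg.Lib.Asch Cfsg.Lib.Linear

variable {F : Type*} [Field F] {P : Subgroup (G5 F)} {a b x s u t : G5 F}

namespace T3

open Module

theorem rank_add_ker (M : Matrix (Fin 5) (Fin 5) F) :
    M.rank + finrank F (LinearMap.ker M.mulVecLin) = 5 := by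
  have := LinearMap.finrank_range_add_finrank_ker M.mulVecLin
  rwa [finrank_fintype_fun_eq_card, Fintype.card_fin] at this

theorem sub_app (g : G5 F) (v : Fin 5 → F) : (g.1 - 1).mulVecLin v = g.1 *ᵥ v - v := by
  rw [Matrix.mulVecLin_apply, Matrix.sub_mulVec, Matrix.one_mulVec]

theorem eq_one_of_fix (h : ∀ v, x.1 *ᵥ v = v) : x = 1 :=
  Units.ext (Matrix.mulVec_injective (funext fun v => by rw [h, Units.val_one, Matrix.one_mulVec]))

theorem eq_zero_of_rank {M : Matrix (Fin 5) (Fin 5) F} (h : M.rank = 0) : M = 0 :=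
  Matrix.mulVec_injective (funext fun v => by
    rw [Matrix.zero_mulVec]
    exact (Submodule.finrank_eq_zero.1 h).le ⟨v, rfl⟩)

theorem rank_le_four {M : Matrix (Fin 5) (Fin 5) F} (h : M.det = 0) : M.rank ≤ 4 := by
  obtain ⟨v, hv, e⟩ := Matrix.exists_mulVec_eq_zero_iff.2 h
  have h1 := rank_add_ker M
  have h2 : finrank F (LinearMap.ker M.mulVecLin) ≠ 0 := fun z =>
    hv ((Submodule.finrank_eq_zero.1 z).le (show v ∈ LinearMap.ker M.mulVecLin from e))
  omega

theorem comm_top (h : QS P) : commutator P = ⊤ :=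
  Subgroup.map_injective P.subtype_injective (by
    rw [Subgroup.map_subtype_commutator, h.perfect, ← MonoidHom.range_eq_map, Subgroup.range_subtype])

theorem noZ_of_not_dvd (h : QS P) (d : ¬ 5 ∣ Nat.card ((scalars (Fin 5) F).subgroupOf P)) : NoZ P :=
  fun g hg hz => by_contra fun n => d (by
    haveI : Fact (Nat.Prime 5) := ⟨by norm_num⟩
    have o : orderOf (⟨⟨g, hg⟩, hz⟩ : (scalars (Fin 5) F).subgroupOf P) = 5 :=
      orderOf_eq_prime (Subtype.ext (Subtype.ext (h.pow_five hg hz))) fun e =>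
        n (congrArg (fun y => y.1.1) e)
    exact o.symm.dvd.trans (orderOf_dvd_natCard _))

theorem scal_le_center : (scalars (Fin 5) F).subgroupOf P ≤ Subgroup.center P := fun _ hz =>
  Subgroup.mem_center_iff.2 fun g => Subtype.ext (comm_of_scalar hz g.1)

open Polynomial Matrix in
theorem trace_pow (p : ℕ) [hp : Fact p.Prime] [CharP F p] (M : Matrix (Fin 5) (Fin 5) F) :
    (M ^ p).trace = M.trace ^ p := by
  have h : (M ^ p).charpoly = M.charpoly.map (frobenius F p) := by
    apply expand_injective hp.out.pos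
    rw [← map_expand, map_frobenius_expand]
    unfold charpoly
    rw [AlgHom.map_det, ← coe_detMonoidHom,
      ← (detMonoidHom : Matrix (Fin 5) (Fin 5) F[X] →* F[X]).map_pow]
    congr 1
    refine matPolyEquiv.injective ?_
    rw [map_pow, matPolyEquiv_charmatrix, sub_pow_char_of_commute, ← C_pow]
    · exact (id (matPolyEquiv_eq_X_pow_sub_C p M) :)
    · exact (C M).commute_X
  rw [trace_eq_neg_charpoly_coeff, trace_eq_neg_charpoly_coeff, h, coeff_map, frobenius_def,
    neg_pow, neg_one_pow_char, neg_one_mul]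

end T3

open T3 Module in
/-- Scott's lemma (a proof for representations is `E8N.scott` in Lib/E8N/Lin; copy it, do not import E8N).
`V³ ⊇ Z¹ = {(α, β, γ) ∈ [V,a] × [V,b] × [V,(ab)⁻¹] | α + a β + a b γ = 0} ⊇ B¹ ≅ V`, and the map
`(α, β, γ) ↦ α + a β + a b γ` is onto `[V,a] + [V,b] = V`. -/
theorem scott (hi : Irr (Subgroup.closure {a, b})) : 10 ≤ (a.1 - 1).rank + (b.1 - 1).rank + ((a * b).1 - 1).rank := by
  have nt : ¬ ((∀ v, a.1 *ᵥ v = v) ∧ ∀ v, b.1 *ᵥ v = v) := fun ⟨h1, h2⟩ =>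
    hi.not_le_scalars (by rw [Fintype.card_fin]; omega) ((Subgroup.closure_le _).2 (by
      rintro g (rfl | rfl)
      · rw [eq_one_of_fix h1]; exact one_mem _
      · rw [eq_one_of_fix h2]; exact one_mem _))
  have mul : ∀ (g h : G5 F) v, (g * h).1 *ᵥ v = g.1 *ᵥ h.1 *ᵥ v := fun g h v => by
    rw [Units.val_mul, Matrix.mulVec_mulVec]
  have inv : ∀ (g : G5 F) v, g.1 *ᵥ (g⁻¹).1 *ᵥ v = v := fun g v => by
    rw [← mul, mul_inv_cancel, Units.val_one, Matrix.one_mulVec]
  have gen : ∀ U : Submodule F (Fin 5 → F), ∀ S : Set (Fin 5 → F), (∀ g : G5 F, ∀ v ∈ S, g.1 *ᵥ v - v ∈ U → g.1 *ᵥ v ∈ S) →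
      (∀ g : G5 F, (∀ v ∈ S, g.1 *ᵥ v - v ∈ U) → ∀ v ∈ S, (g⁻¹).1 *ᵥ v ∈ S) →
      (∀ v ∈ S, a.1 *ᵥ v - v ∈ U) → (∀ v ∈ S, b.1 *ᵥ v - v ∈ U) →
      ∀ g ∈ Subgroup.closure {a, b}, ∀ v ∈ S, g.1 *ᵥ v - v ∈ U := fun U S k1 k2 ha hb g hg => by
    induction hg using Subgroup.closure_induction with
    | mem x hx =>
      rcases hx with rfl | rfl
      exacts [ha, hb]
    | one => simp
    | mul x y _ _ hx hy =>
      intro v hv
      rw [mul, ← sub_add_sub_cancel _ (y.1 *ᵥ v)]
      exact add_mem (hx _ (k1 y v hv (hy v hv))) (hy v hv)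
    | inv x _ hx =>
      intro v hv
      have := neg_mem (hx _ (k2 x hx v hv))
      rwa [inv, neg_sub] at this
  set A := LinearMap.range (a.1 - 1).mulVecLin with hA
  set B := LinearMap.range (b.1 - 1).mulVecLin with hB
  have hm : ∀ (g : G5 F) v, g.1 *ᵥ v - v ∈ LinearMap.range (g.1 - 1).mulVecLin := fun g v => ⟨v, sub_app g v⟩
  have h1 : ∀ v, a.1 *ᵥ v = v → b.1 *ᵥ v = v → v = 0 := fun v ha hb => by
    let W := LinearMap.ker (a.1 - 1).mulVecLin ⊓ LinearMap.ker (b.1 - 1).mulVecLin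
    have mW : ∀ w, w ∈ W ↔ a.1 *ᵥ w = w ∧ b.1 *ᵥ w = w := fun w => by
      simp only [W, Submodule.mem_inf, LinearMap.mem_ker, sub_app, sub_eq_zero]
    have := gen ⊥ W (fun g v hv e => by rwa [sub_eq_zero.1 e])
      (fun g hg v hv => by
        have := congrArg ((g⁻¹).1 *ᵥ ·) (sub_eq_zero.1 (hg v hv))
        simp only [← mul, inv_mul_cancel, Units.val_one, Matrix.one_mulVec] at this
        rwa [← this])
      (fun v hv => sub_eq_zero.2 ((mW v).1 hv).1) fun v hv => sub_eq_zero.2 ((mW v).1 hv).2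
    rcases hi W (fun g hg w hw => by rwa [sub_eq_zero.1 (this g hg w hw)]) with e | e
    · exact e.le ((mW v).2 ⟨ha, hb⟩)
    · exact (nt ⟨fun w => ((mW w).1 (e.ge trivial)).1, fun w => ((mW w).1 (e.ge trivial)).2⟩).elim
  have h3 : A ⊔ B = ⊤ := by
    have := gen (A ⊔ B) Set.univ (fun _ _ _ _ => trivial) (fun _ _ _ _ => trivial)
      (fun v _ => Submodule.mem_sup_left (hm a v)) fun v _ => Submodule.mem_sup_right (hm b v)
    rcases hi (A ⊔ B) (fun g hg w hw => by simpa using add_mem (this g hg w trivial) hw) with e | e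
    · exact (nt ⟨fun w => sub_eq_zero.1 (e.le (Submodule.mem_sup_left (hm a w))),
        fun w => sub_eq_zero.1 (e.le (Submodule.mem_sup_right (hm b w)))⟩).elim
    · exact e
  have h4 := Submodule.finrank_sup_add_finrank_inf_eq A B
  have fx : ∀ v ∈ LinearMap.ker ((a * b).1 - 1).mulVecLin, a.1 *ᵥ b.1 *ᵥ v = v := fun v hv => by
    rwa [LinearMap.mem_ker, sub_app, sub_eq_zero, mul] at hv
  have h5 : finrank F (LinearMap.ker ((a * b).1 - 1).mulVecLin) ≤ finrank F ↥(A ⊓ B) := by
    refine LinearMap.finrank_le_finrank_of_injective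
      (f := (b.1 - 1).mulVecLin.restrict (p := LinearMap.ker ((a * b).1 - 1).mulVecLin) (q := A ⊓ B) fun v hv =>
        ⟨?_, v, rfl⟩) ((injective_iff_map_eq_zero _).2 fun v hv => ?_)
    · have := neg_mem (hm a (b.1 *ᵥ v))
      rw [fx v hv, neg_sub] at this
      rwa [sub_app]
    · have h6 : b.1 *ᵥ v.1 = v.1 := by
        have : (b.1 - 1).mulVecLin v.1 = 0 := congrArg Subtype.val hv
        rwa [sub_app, sub_eq_zero] at this
      have h7 := fx v.1 v.2
      rw [h6] at h7
      exact Subtype.ext (h1 _ h7 h6)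
  have h6 := rank_add_ker ((a * b).1 - 1)
  rw [h3, finrank_top, finrank_fintype_fun_eq_card, Fintype.card_fin] at h4
  have e1 : (a.1 - 1).rank = finrank F A := rfl
  have e2 : (b.1 - 1).rank = finrank F B := rfl
  omega

theorem rank_unip (p : ℕ) [Fact p.Prime] [CharP F p] {n : ℕ} (h : x ^ p ^ n = 1) : (x.1 - 1).rank ≤ 4 := by
  refine T3.rank_le_four (pow_eq_zero_iff (n := p ^ n) (pow_ne_zero n (Fact.out : p.Prime).ne_zero) |>.1 ?_)
  rw [← Matrix.det_pow, sub_pow_char_pow_of_commute p n (Commute.one_right _), ← Units.val_pow_eq_pow_val, h,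
    Units.val_one, one_pow, sub_self, Matrix.det_zero]

theorem rank_inv_two [CharP F 2] (h : t * t = 1) : (t.1 - 1).rank ≤ 2 := by
  have : (t.1 - 1) * (t.1 - 1) = 0 := by
    rw [← pow_two, sub_pow_char_of_commute 2 (Commute.one_right _), pow_two, ← Units.val_mul, h, Units.val_one,
      one_pow, sub_self]
  have := Matrix.rank_add_rank_le_card_of_mul_eq_zero this
  rw [Fintype.card_fin] at this
  omega

/-- A unipotent element of rank one is a transvection. -/
theorem hasTv_of_rank (hx : x ∈ P) (hd : x.1.det = 1) (h : (x.1 - 1).rank = 1) : HasTv P := by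
  obtain ⟨v, hv, e⟩ := finrank_eq_one_iff'.1 h
  choose φ hφ using fun j => e ⟨_, Pi.single j 1, rfl⟩
  have k : x.1 - 1 = Matrix.vecMulVec v.1 φ := Matrix.ext fun i j => by
    have := congrFun (congrArg Subtype.val (hφ j)) i
    simp only [Submodule.coe_smul, Pi.smul_apply, smul_eq_mul, Matrix.mulVecLin_apply, Matrix.mulVec_single_one,
      Matrix.col_apply] at this
    rw [Matrix.vecMulVec_apply, ← this, mul_comm]
  have k' : x.1 = 1 + Matrix.vecMulVec v.1 φ := by rw [← k, add_sub_cancel]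
  refine ⟨x, hx, v.1, φ, fun z => hv (Subtype.ext z), fun z => ?_, ?_, k'⟩
  · rw [k, z, Matrix.vecMulVec_zero, Matrix.rank_zero] at h
    exact zero_ne_one h
  · rw [k', Matrix.vecMulVec_eq Unit, Matrix.det_one_add_replicateCol_mul_replicateRow] at hd
    exact add_eq_left.1 hd

/-- In characteristic two an involution that is not a transvection has rank two. -/
theorem rank_eq_two [CharP F 2] (hP : ¬ HasTv P) (ht : t ∈ P) (h : t * t = 1) (h1 : t ≠ 1) : (t.1 - 1).rank = 2 := by
  have h2 := rank_inv_two h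
  have h3 : (t.1 - 1).rank ≠ 0 := fun z => h1 (Units.ext (sub_eq_zero.1 (T3.eq_zero_of_rank z)))
  have h4 : (t.1 - 1).rank ≠ 1 := fun z => hP (hasTv_of_rank ht (by
    have e : t.1.det * t.1.det = 1 := by rw [← Matrix.det_mul, ← Units.val_mul, h, Units.val_one, Matrix.det_one]
    rcases mul_self_eq_one_iff.1 e with e | e
    · exact e
    · rw [e, CharTwo.neg_eq]) z)
  omega

/-- As `Sp4O.trace_pow_char`. -/
theorem trace_pow_char (p : ℕ) [Fact p.Prime] [CharP F p] (M : Matrix (Fin 5) (Fin 5) F) (n : ℕ) :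
    (M ^ p ^ n).trace = M.trace ^ p ^ n := by
  induction n with
  | zero => simp
  | succ n ih => rw [pow_succ, pow_mul, pow_mul, T3.trace_pow, ih]

/-- `(s u) ^ p ^ n = s ^ p ^ n` and the Frobenius map is injective. -/
theorem trace_unip (p : ℕ) [Fact p.Prime] [CharP F p] {n : ℕ} (h : u ^ p ^ n = 1) (c : s * u = u * s) :
    (s * u).1.trace = s.1.trace := by
  have e : (s * u) ^ p ^ n = s ^ p ^ n := by rw [Commute.mul_pow c, h, mul_one]
  refine sub_eq_zero.1 (pow_eq_zero_iff (n := p ^ n) (pow_ne_zero n (Fact.out : p.Prime).ne_zero) |>.1 ?_)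
  rw [sub_pow_char_pow, ← trace_pow_char, ← trace_pow_char, ← Units.val_pow_eq_pow_val, e,
    Units.val_pow_eq_pow_val, sub_self]

/-- Every element of finite order has a power `y` of order prime to `p` with the same trace data. -/
theorem exists_reg (p : ℕ) [Fact p.Prime] [CharP F p] (h : IsOfFinOrder x) :
    ∃ m : ℕ, Nat.Coprime (orderOf (x ^ m)) p ∧ (x ^ m).1.trace = x.1.trace ∧ ((x ^ m)⁻¹).1.trace = (x⁻¹).1.trace := by
  have pp : p.Prime := Fact.out
  obtain ⟨n, k, hk, e⟩ := Nat.exists_eq_pow_mul_and_not_dvd h.orderOf_pos.ne' p pp.ne_one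
  have co := (Nat.Prime.coprime_iff_not_dvd pp).2 hk
  obtain ⟨m, m0, m1⟩ := Nat.chineseRemainder (co.pow_left n) 0 1
  have c : Commute (x ^ m)⁻¹ x := ((Commute.refl x).pow_left m).inv_left
  have hu : ((x ^ m)⁻¹ * x) ^ p ^ n = 1 := by
    rw [c.mul_pow, inv_pow, inv_mul_eq_one, ← pow_mul, pow_eq_pow_iff_modEq, e, mul_comm (p ^ n)]
    simpa using m1.mul_right' (p ^ n)
  have c' : Commute (x ^ m) ((x ^ m)⁻¹ * x) := ((Commute.refl _).inv_right).mul_right ((Commute.refl x).pow_left m)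
  refine ⟨m, co.symm.coprime_dvd_left (orderOf_dvd_of_pow_eq_one ?_), ?_, ?_⟩
  · rw [← pow_mul, ← orderOf_dvd_iff_pow_eq_one, e]
    exact Nat.mul_dvd_mul_right ((Nat.modEq_zero_iff_dvd).1 m0) k
  · rw [← trace_unip p hu c', mul_inv_cancel_left]
  · rw [← trace_unip p (u := ((x ^ m)⁻¹ * x)⁻¹) (n := n) (by rw [inv_pow, hu, inv_one]) c'.inv_inv.eq,
      ← mul_inv_rev, ← c'.eq, mul_inv_cancel_left]

theorem trace_conj (e : IsConj a b) : a.1.trace = b.1.trace := by
  obtain ⟨c, rfl⟩ := isConj_iff.1 e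
  rw [Units.val_mul, Units.val_mul, Matrix.trace_units_conj]

theorem real_of_conj (p : ℕ) [Fact p.Prime] [CharP F p] [Finite P]
    (h : ∀ x ∈ P, Nat.Coprime (orderOf x) p → IsConj x x⁻¹) : Real P := by
  intro x hx
  obtain ⟨m, h1, h2, h3⟩ := exists_reg p (x := x)
    (P.subtype.isOfFinOrder (isOfFinOrder_of_finite (⟨x, hx⟩ : P)))
  rw [← h2, ← h3, trace_conj (h _ (pow_mem hx m) h1)]

/-- Without scalars `P ≅ P / Z`. -/
theorem NoZ.iso (h : NoZ P) {X : Type*} [Group X] (e : Sq P ≃* X) : Nonempty (P ≃* X) := by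
  have : (scalars (Fin 5) F).subgroupOf P = ⊥ := eq_bot_iff.2 fun g hg => Subtype.ext (h g.1 g.2 hg)
  exact ⟨(QuotientGroup.quotientBot.symm.trans (QuotientGroup.quotientMulEquivOfEq this.symm)).trans e⟩

/-- `P → Sq P ≃ X` is a stem extension with kernel of exponent `5` (transport `P` to the universe of `X` with
`Shrink`/`ULift`, as `P` is finite); the kernel is a quotient of the multiplier `A`. -/
theorem QS.noZ (h : QS P) [Finite P] {X : Type*} [Group X] (e : Sq P ≃* X) {A : Type*} [CommGroup A]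
    (hA : HasSchurMultiplier X A) (h5 : ¬ 5 ∣ Nat.card A) : NoZ P := by
  have k : (e.toMonoidHom.comp (QuotientGroup.mk' _)).ker = (scalars (Fin 5) F).subgroupOf P := by
    ext x; simp
  obtain ⟨π, hπ⟩ := Schur.exists_surjective_ker hA (σ := e.toMonoidHom.comp (QuotientGroup.mk' _))
    ⟨e.surjective.comp (QuotientGroup.mk'_surjective _), k.le.trans T3.scal_le_center, T3.comm_top h ▸ le_top⟩
  exact T3.noZ_of_not_dvd h fun d => h5 (d.trans (k ▸ Subgroup.card_dvd_of_surjective π hπ))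

/-- `S0102`: cyclic Sylow 5-subgroups (for instance `25 ∤ |X|`). -/
theorem QS.noZ_of_card (h : QS P) [Finite P] (h5 : ¬ 25 ∣ Nat.card (Sq P)) : NoZ P := by
  haveI : Fact (Nat.Prime 5) := ⟨by norm_num⟩
  have s := QuotientGroup.mk'_surjective ((scalars (Fin 5) F).subgroupOf P)
  have c : commutator (Sq P) = ⊤ := by
    have := congrArg (Subgroup.map (QuotientGroup.mk' ((scalars (Fin 5) F).subgroupOf P))) (T3.comm_top h)
    rwa [commutator_def, Subgroup.map_commutator, Subgroup.map_top_of_surjective _ s] at this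
  have := Agent.S0102.result c (p := 5) (fun S => by
    obtain ⟨n, hn⟩ := S.isPGroup'.exists_card_eq
    refine isCyclic_of_card_dvd_prime (p := 5) ?_
    rw [hn]
    rcases Nat.lt_or_ge n 2 with l | l
    · exact (pow_dvd_pow 5 (Nat.le_of_lt_succ l)).trans (pow_one 5).dvd
    · exact absurd ((pow_dvd_pow 5 l).trans (hn ▸ Subgroup.card_subgroup_dvd_card _)) h5)
    _ s (by rw [QuotientGroup.ker_mk']; exact T3.scal_le_center) (T3.comm_top h)
  rw [QuotientGroup.ker_mk'] at this
  exact T3.noZ_of_not_dvd h this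

/-- In characteristic five there are no scalars of order five. -/
theorem QS.noZ_five (h : QS P) [CharP F 5] : NoZ P := by
  intro g hg hz
  haveI : Fact (Nat.Prime 5) := ⟨by norm_num⟩
  obtain ⟨c, hc⟩ := mem_scalars_iff'.1 hz
  have e := five_eq_one_of_det (h.det hg) hc
  have : c = 1 := sub_eq_zero.1 (pow_eq_zero_iff (n := 5) (by norm_num) |>.1 (by
    rw [sub_pow_char, e, one_pow, sub_self]))
  exact Units.ext (by rw [hc, this, one_smul, Units.val_one])

end Cfsg.Lib.Q5
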